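import Mathlib
import Cfsg.Agent.Fus.CompFit

/-!
# `E`-balance for fusion systems
-/

set_option autoImplicit false

namespace Cfsg.Agent.Fus

open Cfsg Cfsg.FusionSystem

universe u

variable {Ω : Type u} [Group Ω] {S T U R X Y W T₁ T₂ : Subgroup Ω}
variable {F : FusionSystem S} {E : FusionSystem T} {D : FusionSystem U} {C : FusionSystem R}
  {E₁ : FusionSystem T₁} {E₂ : FusionSystem T₂} {P Q : Subgroup Ω} {f g : Ω → Ω} {p : ℕ}

theorem IsComponentIn_congr (h : C.IsComponentIn D p) (e : ∀ P f, IsMap D P f ↔ IsMap E P f) :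
    C.IsComponentIn E p := by
  obtain rfl : U = T := le_antisymm ((e _ _).1 (isMap_id D le_rfl)).le
    ((e _ _).2 (isMap_id E le_rfl)).le
  rwa [← ext_isMap e]

theorem isCMap_normSys_iff (hX : X ≤ S) (hXY : X ≤ Y) (hY : Y ≤ normalizerIn S X) :
    IsCMap (normSys F X hX) Y P f ↔ IsCMap F Y P f := by
  refine ⟨fun h => h.of_sub (normSys_sub F hX), fun ⟨h1, g, hg, e, e'⟩ => ?_⟩
  have h2 : P ≤ normalizerIn S X :=
    h1.trans ((centralizerIn_anti hXY).trans (centralizerIn_le_normalizerIn S X))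
  exact ⟨le_inf h2 (h1.trans inf_le_right), g, isMap_normSys.2 (isNMap_of_isMap hg le_rfl
    (hXY.trans le_sup_right) (sup_le h2 hY) (img_eq_self_of_eq fun x hx => e' x (hXY hx))), e, e'⟩

theorem IsCMap.conj' (hf : IsCMap F Y R f) (hg : IsMap F W g) (hR : R ≤ W) (hY : Y ≤ W)
    (hm : ∀ x ∈ R, f x ∈ W) {k : Ω → Ω} (e : ∀ x ∈ R, k (g x) = g (f x)) :
    IsCMap F (img Y g) (img R g) k := by
  obtain ⟨h1, f', hf', e1, e2⟩ := hf
  obtain ⟨g', hg', e3, e4⟩ := hg.exists_inv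
  have hle : img R g ⊔ img Y g ≤ img W g := sup_le (img_mono g hR) (img_mono g hY)
  have h2 : ∀ x ∈ img R g ⊔ img Y g, g' x ∈ R ⊔ Y := (hg'.mono hle).homOn.mem_of_sup
    (fun x hx => by
      obtain ⟨y, hy, rfl⟩ := (hg.mono hR).mem_img.1 hx
      rw [e3 y (hR hy)]
      exact Subgroup.mem_sup_left hy) fun x hx => by
      obtain ⟨y, hy, rfl⟩ := (hg.mono hY).mem_img.1 hx
      rw [e3 y (hY hy)]
      exact Subgroup.mem_sup_right hy
  have h3 : ∀ x ∈ R ⊔ Y, f' x ∈ W := hf'.homOn.mem_of_sup (fun x hx => (e1 x hx).symm ▸ hm x hx)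
    fun x hx => (e2 x hx).symm ▸ hY hx
  refine ⟨img_le_iff.2 fun x hx => hg.mem_centralizerIn_img hY (hR hx) (h1 hx), _,
    hg.comp' (hf'.comp' (hg'.mono hle) h2) fun x hx => h3 _ (h2 x hx), fun x hx => ?_,
    fun x hx => ?_⟩
  · obtain ⟨y, hy, rfl⟩ := (hg.mono hR).mem_img.1 hx
    rw [e3 y (hR hy), e1 y hy, e y hy]
  · obtain ⟨y, hy, rfl⟩ := (hg.mono hY).mem_img.1 hx
    rw [e3 y (hY hy), e2 y hy]

theorem exists_fIso_centSys [Finite S] (hY : F.IsFullyCentralized Y) (hg : IsMap F W g)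
    (hYW : Y ≤ W) (hC : centralizerIn S Y ≤ W) (hY' : img Y g ≤ S) :
    ∃ k, IsMap F (img W g) k ∧ FIso (centSys F Y hY.1) (centSys F (img Y g) hY') g k := by
  obtain ⟨k, hk, hiso⟩ := hg.gIso
  have h1 := hiso.restrict hC
  have h2 := hg.img_centralizerIn hY hYW hC
  rw [imX_eq_img, h2] at h1
  have h3 : centralizerIn S (img Y g) ≤ img W g := h2.ge.trans (img_mono g hC)
  refine ⟨k, hk, h1, fun P f hf => ?_, fun P f hf => ?_⟩
  · have hf' := isMap_centSys.1 hf
    exact isMap_centSys.2 (hf'.conj' hg (hf'.1.trans hC) hYW (fun x hx => hC (hf'.mem hx))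
      fun x hx => by simp only [Function.comp]; rw [hiso.left x (hC (hf'.1 hx))])
  · have hf' := isMap_centSys.1 hf
    have := hf'.conj' hk (hf'.1.trans h3) (img_mono g hYW) (fun x hx => h3 (hf'.mem hx))
      (k := k ∘ f ∘ g) fun x hx => by simp only [Function.comp]; rw [hiso.right x (h3 (hf'.1 hx))]
    rw [← imX_eq_img k (img Y g), ← imX_eq_img g, hiso.imX_imX hYW] at this
    exact isMap_centSys.2 this

theorem stronglyClosed_normalizerIn_sup (hT : F.StronglyClosed T) (hX : X ≤ S) :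
    (normSys F X hX).StronglyClosed (normalizerIn (X ⊔ T) X) := by
  refine stronglyClosed_iff.2 ⟨inf_le_inf_right _ (sup_le hX hT.1), fun P f hf y hy hy' => ?_⟩
  have hf' := isMap_normSys.1 hf
  refine ⟨?_, (hf'.mem hy).2⟩
  obtain ⟨-, g, hg, e, hi⟩ := hf'
  obtain ⟨x, hx, t, ht, rfl⟩ := mem_sup_of_normalizes (fun a ha l hl =>
    (isMap_conj F le_rfl (hX ha)).mem_of_stronglyClosed hT (hT.1 hl) hl) hy'.1
  have h1 : t ∈ P ⊔ X := by
    simpa using (P ⊔ X).mul_mem ((P ⊔ X).inv_mem (Subgroup.mem_sup_right hx))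
      (Subgroup.mem_sup_left hy)
  rw [← e _ hy, hg.map_mul (Subgroup.mem_sup_right hx) h1]
  exact Subgroup.mul_mem_sup (hi ▸ mem_img_of_mem g hx) (hg.mem_of_stronglyClosed hT h1 ht)

variable [Fact p.Prime] [Finite S]

theorem CPr.hyp_le_of_inner (h : CPr (innerFusionSystem T₁) E₂ F) (hS : IsPGroup p S) :
    F.hyperfocalSubgroup p ≤ T₂ := by
  refine hyp_le_iff.2 fun P hP α hα hc => ?_
  obtain ⟨P₁, P₂, f₁, f₂, h₁, h₂, e⟩ := (h.map _ _).1 (isMap_afn hP hα)
  obtain ⟨-, a, ha, e'⟩ := isMap_inner_iff.1 h₁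
  have hn : ∀ s ∈ S, ∀ t ∈ T₂, s * t * s⁻¹ ∈ T₂ := fun s hs t ht =>
    (isMap_conj F le_rfl hs).mem_of_stronglyClosed h.sc₂ (h.le₂ ht) ht
  have h1 : ∀ x ∈ P, (a * x * a⁻¹)⁻¹ * afn α x ∈ T₂ := fun x hx => by
    obtain ⟨x₁, c₁, x₂, c₂, rfl, e1⟩ := e x hx
    rw [e1, e' _ c₁, mul_assoc a, mul_assoc x₁, ← h.comm _ (T₁.inv_mem ha) _ (h₂.le c₂)]
    convert T₂.mul_mem (T₂.inv_mem (h₂.le c₂)) (h₂.mem c₂) using 1
    group
  have h2 : ∀ n : ℕ, ∀ x ∈ P, (a ^ n * x * (a ^ n)⁻¹)⁻¹ * afn (α ^ n) x ∈ T₂ := fun n => by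
    induction n with
    | zero => intro x _; simp [afn_one]
    | succ n ih =>
      intro x hx
      rw [afn_pow α n hx, pow_succ' a]
      have e1 := T₂.mul_mem (hn a (h.le₁ ha) _ (ih x hx)) (h1 _ (afn_mem (α ^ n) hx))
      generalize afn (α ^ n) x = y at *
      generalize a ^ n = b at *
      convert e1 using 1
      group
  obtain ⟨k, hk⟩ := hS ⟨a, h.le₁ ha⟩
  have h3 : α ^ p ^ k ∈ trivMod P T₂ := fun x hx => by
    simpa [show a ^ p ^ k = 1 from congrArg Subtype.val hk] using h2 (p ^ k) x hx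
  have := finite_of_le hP
  exact (Subgroup.zpowers_le.2 h3) (mem_zpowers_pow_iff.2 (hc.pow_right k).symm)

theorem component_centSys (hS : IsPGroup p S) (hE : E.IsWeaklyNormalIn F p)
    (h : C.IsComponentIn F p) (k : ∀ P f, IsMap C P f → IsCMap F T P f) :
    C.IsComponentIn (centSys F T (Inv.le hE.2.2)) p := by
  have hE' := ppRes_normal_of_weaklyNormal hS hE
  obtain ⟨D, h1, h2, h3⟩ := exists_normal_cenE hS hE'
  have := finite_of_le (centralizerIn_le S T)
  exact IsComponentIn_of_normal (component_of_le hS h h3.1 (le_cenE_of_isCMap hS hE' h.2.2.1 k))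
    (ppRes_normal_of_weaklyNormal (isPGroup_of_le hS (centralizerIn_le S T))
      (weaklyNormal_of_sub hS h1 (centSys_saturated hS hE.2.1 (sat_fullyCentralized hS hE.2.1
        (fullyNormalized_of_weaklyClosed (weaklyClosed_of_stronglyClosed (Inv.sc hE.2.2)))))
        (centSys_sub F _) h2.1))

theorem fullyCentralized_of_sc_normSys (hS : IsPGroup p S) (hF : F.IsSaturated p)
    (hX : F.IsFullyNormalized X) (hXY : X ≤ Y) (hY : (normSys F X hX.1).StronglyClosed Y) :
    F.IsFullyCentralized Y := by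
  have hYS := hY.1.trans (normalizerIn_le S X)
  have := finite_of_le hYS
  refine ⟨hYS, fun Y' hc => ?_⟩
  obtain ⟨f, hf, rfl⟩ := isConj_iff.1 hc
  obtain ⟨g, hg, hi⟩ := sat_exists_map_normalizer hS hF hX (isConj_symm (hf.mono hXY).isConj)
  have h1 : img Y f ≤ normalizerIn S (img X f) :=
    img_le_iff.2 fun y hy => hf.mem_normalizerIn_img hXY hy (hY.1 hy)
  have h2 := hg.comp hf fun y hy => h1 (mem_img_of_mem f hy)
  have h3 : img Y (g ∘ f) = Y := h2.img_eq_self fun y hy => (isMap_normSys.2 (isNMap_of_isMap h2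
    le_rfl hXY hY.1 (by rw [← (hf.mono hXY).homOn.img_img, hi]))).mem_of_stronglyClosed hY hy hy
  have h4 : centralizerIn S (img Y f) ≤ normalizerIn S (img X f) :=
    (centralizerIn_anti (img_mono f hXY)).trans (centralizerIn_le_normalizerIn _ _)
  have := finite_of_le (centralizerIn_le S Y)
  refine hg.card_le_of_mem h4 fun x hx => ?_
  have := hg.mem_centralizerIn_img h1 (h4 hx) hx
  rwa [hf.homOn.img_img, h3] at this

theorem local_fullyNormalized (hS : IsPGroup p S) (hF : F.IsSaturated p)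
    (hT : F.StronglyClosed T) (hX : F.IsFullyNormalized X) {G : FusionSystem (X ⊔ T : Subgroup Ω)}
    (hG : G.IsSaturated p) (hGF : G.IsSubsystemOf F) (hi : G.hyperfocalSubgroup p ≤ T) :
    G.IsFullyNormalized X := by
  have hW : X ⊔ T ≤ S := sup_le hX.1 hT.1
  have := finite_of_le hW
  have hWp := isPGroup_of_le hS hW
  have hn : ∀ s ∈ S, ∀ t ∈ T, s * t * s⁻¹ ∈ T := fun s hs t ht =>
    (isMap_conj F le_rfl hs).mem_of_stronglyClosed hT (hT.1 ht) ht
  refine ⟨le_sup_left, fun X' hc => ?_⟩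
  obtain ⟨h, hh, rfl⟩ := isConj_iff.1 hc
  obtain ⟨g, hg, hgi⟩ := sat_exists_map_normalizer hS hF hX
    (isConj_symm (hh.of_sub hGF).isConj)
  obtain ⟨s, hs, e⟩ := exists_conj_mod_hyp hWp hG hh
  have := finite_of_le (normalizerIn_le (X ⊔ T) X)
  refine hg.card_le_of_mem (inf_le_inf_right _ hW) fun y hy => ⟨?_, by
    have := hg.mem_normalizerIn_img (le_normalizerIn (hh.of_sub hGF).img_le)
      ⟨hW hy.1, hy.2⟩ ⟨hW hy.1, hy.2⟩
    rw [hgi] at this
    exact this.2⟩
  obtain ⟨x, hx, t, ht, e1⟩ := mem_sup_of_normalizes (fun a ha => hn a (hX.1 ha))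
    ((X ⊔ T).mul_mem ((X ⊔ T).mul_mem ((X ⊔ T).inv_mem hs) hy.1) hs)
  have h1 : (h x)⁻¹ * y ∈ T := by
    convert T.mul_mem (T.inv_mem (hi (e x hx))) (hn s (hW hs) t ht) using 1
    rw [show y = s * (x * t) * s⁻¹ by rw [← e1]; group]
    group
  have h2 : h x ∈ normalizerIn S (img X h) :=
    le_normalizerIn (hh.of_sub hGF).img_le (mem_img_of_mem h hx)
  have h3 : (h x)⁻¹ * y ∈ normalizerIn S (img X h) :=
    Subgroup.mul_mem _ (Subgroup.inv_mem _ h2) ⟨hW hy.1, hy.2⟩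
  rw [show y = h x * ((h x)⁻¹ * y) by group, hg.map_mul h2 h3]
  exact Subgroup.mul_mem_sup (hgi ▸ mem_img_of_mem g (mem_img_of_mem h hx))
    (hg.mem_of_stronglyClosed hT h3 h1)

theorem prod_frattini (hS : IsPGroup p S) (hE : E.IsWeaklyNormalIn F p) {G : FusionSystem W}
    (hi : G.HasPPowerIndexIn (esSys hS hE) p) (hT : T ≤ W) (hg : IsMap F P g) (hP : P ≤ W) :
    ∃ n h, IsMap F (P ⊔ T) n ∧ IsMap G P h ∧ (∀ x ∈ P, x⁻¹ * h x ∈ T) ∧
      ∀ x ∈ P, g x = n (h x) := by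
  have hB := (nFam_single hS hE).bData
  obtain ⟨n, h, h1, h2, h3⟩ := hB.frattini hS hE.2.1 hg
  exact ⟨n, h, h1, hB.hMap_isMap hi hT h2 hP, hB.hMap_triv h2, h3⟩

theorem local_frat (hS : IsPGroup p S) (hT : F.StronglyClosed T) (hX : X ≤ S)
    {G : FusionSystem (X ⊔ T : Subgroup Ω)} (hG : G.IsSaturated p) (hGF : G.IsSubsystemOf F)
    (hXG : G.IsFullyNormalized X) (hP : P ≤ normalizerIn (X ⊔ T) X) {n h : Ω → Ω}
    (hn : IsMap F (X ⊔ T) n) (hh : IsMap G (P ⊔ X) h) (ht : ∀ x ∈ X, x⁻¹ * h x ∈ T)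
    (h1 : img (img X h) n = X) :
    ∃ α ∈ (normSys F X hX).autGroup (normalizerIn (X ⊔ T) X), ∃ f₀,
      IsMap (normSys G X hXG.1) P f₀ ∧ ∀ x ∈ P, n (h x) = afn α (f₀ x) := by
  have hW : X ⊔ T ≤ S := sup_le hX hT.1
  have := finite_of_le hW
  have hWp := isPGroup_of_le hS hW
  have hXN : X ≤ normalizerIn (X ⊔ T) X := le_normalizerIn le_sup_left
  have hYW := normalizerIn_le (X ⊔ T) X
  have := finite_of_le hYW
  have hle : P ⊔ X ≤ normalizerIn (X ⊔ T) X := sup_le hP hXN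
  have hhX : IsMap G X h := hh.mono le_sup_right
  have hX' : img X h ≤ X ⊔ T := hhX.img_le
  have h0 : img X h ⊔ T = X ⊔ T := le_antisymm (sup_le hX' le_sup_right)
    (sup_le (fun x hx => by
      simpa using Subgroup.mul_mem _ (Subgroup.mem_sup_left (mem_img_of_mem h hx))
        (Subgroup.mem_sup_right (T.inv_mem (ht x hx)))) le_sup_right)
  have h2 : img (X ⊔ T) n = X ⊔ T := by
    have := (hn.mono h0.le).homOn.img_sup
    rwa [h1, hn.img_stronglyClosed hT le_sup_right, h0] at this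
  obtain ⟨h', hh₁, e4⟩ := sat_exists_map_normalizer hWp hG hXG (isConj_symm hhX.isConj)
  have h3 : ∀ y ∈ normalizerIn (X ⊔ T) (img X h), n y ∈ normalizerIn (X ⊔ T) X := fun y hy =>
    ⟨h2 ▸ mem_img_of_mem n hy.1, by
      have := hn.mem_normalizerIn_img hX' hy.1 ⟨hW hy.1, hy.2⟩
      rw [h1] at this
      exact this.2⟩
  have h4 : ∀ y ∈ normalizerIn (X ⊔ T) (img X h), h' y ∈ normalizerIn (X ⊔ T) X := fun y hy => by
    have := hh₁.mem_normalizerIn_img (le_normalizerIn hX') hy hy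
    rwa [e4] at this
  have h5 : img (normalizerIn (X ⊔ T) (img X h)) h' = normalizerIn (X ⊔ T) X := by
    refine hh₁.img_eq_of_le h4 ?_
    obtain ⟨m, hm, e7, e5, e6⟩ := hn.exists_inv' h2
    have := finite_of_le (normalizerIn_le (X ⊔ T) (img X h))
    refine hm.card_le_of_mem hYW fun y hy => ⟨(e6 y hy.1).1, ?_⟩
    have h6 := hm.mem_normalizerIn_img le_sup_left hy.1 ⟨hW hy.1, hy.2⟩
    have h7 : img X m = img X h := by
      have := (hn.mono hX').homOn.img_img m
      rwa [h1, img_eq_self_of_eq (f := m ∘ n) fun x hx => e5 x (hX' hx)] at this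
    rw [h7] at h6
    exact h6.2
  obtain ⟨k, hk, -, e5, e6⟩ := hh₁.exists_inv' h5
  have h6 := hn.comp' (hk.of_sub hGF) fun y hy => (e6 y hy).1.1
  obtain ⟨α, -, e7⟩ := h6.exists_aut' fun y hy => h3 _ (e6 y hy).1
  have h7 : ∀ y ∈ P ⊔ X, h y ∈ normalizerIn (X ⊔ T) (img X h) := fun y hy =>
    hh.mem_normalizerIn_img le_sup_right hy (hle hy)
  have h8 : img X k = img X h := by
    have := (hh₁.mono (le_normalizerIn hX')).homOn.img_img k
    rwa [e4, img_eq_self_of_eq (f := k ∘ h') fun x hx => e5 x (le_normalizerIn hX' hx)] at this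
  refine ⟨α, mem_autGroup_of_isMap (isMap_normSys.2 (isNMap_of_isMap h6 le_rfl hXN
    (inf_le_inf_right _ hW) ?_)) e7, fun x => h' (h x), isMap_normSys.2
      (isNMap_of_isMap (hh₁.comp' hh h7) le_sup_left le_sup_right hP ?_), fun x hx => ?_⟩
  · exact ((hk.mono hXN).homOn.img_img n).symm.trans (h8.symm ▸ h1)
  · exact (hhX.homOn.img_img h').symm.trans e4
  · rw [e7 _ (h4 _ (h7 x (Subgroup.mem_sup_left hx))), e5 _ (h7 x (Subgroup.mem_sup_left hx))]

/-- The normal subsystem `N_{EX}(X)` of `N_F(X)`. -/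
theorem exists_local_weaklyNormal (hS : IsPGroup p S) (hE : E.IsNormalIn F p)
    (hX : F.IsFullyNormalized X) : ∃ D : FusionSystem (normalizerIn (X ⊔ T) X),
      D.IsWeaklyNormalIn (normSys F X hX.1) p ∧ D.IsSubsystemOf (esSys hS hE.1) := by
  have hF := hE.1.2.1
  have hT := Inv.sc hE.1.2.2
  have hW : X ⊔ T ≤ S := sup_le hX.1 hT.1
  have := finite_of_le hW
  have hWp := isPGroup_of_le hS hW
  obtain ⟨G, hG, hi, hi', -⟩ := exists_prodSys hS hE le_sup_right hW
  have hGF := sub_trans hi.1 (esSys_sub hS hE.1)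
  have hXG := local_fullyNormalized hS hF hT hX hG hGF (hasPPowerIndexIn_iff.1 hi').2.1
  have hD := normSys_saturated hWp hG hXG
  have hsc := stronglyClosed_normalizerIn_sup hT hX.1
  have hXN : X ≤ normalizerIn (X ⊔ T) X := le_normalizerIn le_sup_left
  have hYW := normalizerIn_le (X ⊔ T) X
  have := finite_of_le hYW
  refine ⟨_, ⟨hD, normSys_saturated hS hF hX, invariant_iff.2 ⟨isSubsystemOf_iff.2 fun P f hf => ?_,
    hsc, autInv_of_cr (isPGroup_of_le hWp hYW) hsc.1 hD fun α hα R hR _ _ γ hγ hc β e => ?_,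
    fun P f hP hf => ?_⟩⟩, sub_trans (normSys_sub G _) hi.1⟩
  · exact isMap_normSys.2 ((isMap_normSys.1 hf).of_sub hGF)
  · have hαN := isMap_normSys.1 (isMap_afn hsc.1 hα)
    have hαF := hαN.isMap
    have hαX : img X (afn α) = X := by
      obtain ⟨-, g, -, e1, e2⟩ := hαN
      rw [← img_congr fun x hx => e1 x (hXN hx), e2]
    obtain ⟨-, g, hg, e1, e2⟩ := isMap_normSys.1 (isMap_afn hR.1 hγ)
    have hle : R ⊔ X ≤ normalizerIn (X ⊔ T) X := sup_le hR.1 hXN
    have := finite_of_le hle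
    obtain ⟨δ, hδ, e3⟩ := hg.exists_aut (by rw [hg.homOn.img_sup, e2, img_congr e1, img_afn])
    obtain ⟨k, e4, hk⟩ := exists_pow_ext_coprime (le_sup_left : R ≤ R ⊔ X) (γ := δ) (α := γ)
      (fun x hx => by rw [e3 x (Subgroup.mem_sup_left hx), e1 x hx]) hc
    have hδX : δ ^ k ∈ stab (R ⊔ X) X := pow_mem (mem_stab_of_img le_sup_right (by
      rw [img_congr fun x hx => e3 x (Subgroup.mem_sup_right hx), e2])) k
    obtain ⟨ε, e5, ho, -⟩ := (hαF.mono hle).exists_conj_aut rfl (δ ^ k)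
    have h1 := (hasPPowerIndexIn_iff.1 hi).2.2 _ ((img_afn_le hle α).trans hYW)
      (mem_opSub_of_coprime (esSys_rel hS hE.1 (hαF.mono hle) rfl
        (autGroup_mono hi.1 _ (pow_mem hδ k)) hk e5) (ho ▸ hk))
    have h2 : X ≤ img (R ⊔ X) (afn α) := hαX.ge.trans (img_mono _ le_sup_right)
    refine mem_autGroup_of_isMap (isMap_normSys.2 (isNMap_of_isMap (isMap_afn
      ((img_afn_le hle α).trans hYW) h1) (img_mono _ le_sup_left) h2 (img_afn_le hR.1 α) ?_))
      fun y hy => ?_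
    · refine (congrArg (img · (afn ε)) hαX.symm).trans
        (((hαF.mono hXN).homOn.img_img (afn ε)).trans ?_)
      rw [img_congr (f := afn ε ∘ afn α) (g := afn α ∘ afn (δ ^ k)) fun x hx =>
        e5 x (Subgroup.mem_sup_right hx),
        ← ((homOn_afn _).mono le_sup_right).img_img, img_afn_of_mem_stab le_sup_right hδX, hαX]
    · obtain ⟨x, hx, rfl⟩ := (mem_img_afn hR.1).1 hy
      rw [e x hx, e5 x (Subgroup.mem_sup_left hx), e4 x hx]
  · obtain ⟨-, g, hg, e1, e2⟩ := isMap_normSys.1 hf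
    obtain ⟨n, h, hn, hh, ht, e3⟩ := prod_frattini hS hE.1 hi le_sup_right hg
      ((sup_le hP hXN).trans hYW)
    obtain ⟨α, hα, f₀, h₀, e4⟩ := local_frat hS hT hX.1 hG hGF hXG hP
      (hn.mono (sup_le_sup_right le_sup_right T)) hh (fun x hx => ht x (Subgroup.mem_sup_right hx))
      (((hh.mono le_sup_right).homOn.img_img n).trans ((img_congr fun x hx =>
        (e3 x (Subgroup.mem_sup_right hx)).symm).trans e2))
    exact ⟨α, hα, f₀, h₀, fun x hx => by
      rw [← e4 x hx, ← e3 x (Subgroup.mem_sup_left hx), e1 x hx]⟩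

theorem component_normSys_le (hS : IsPGroup p S) (hE : E.IsNormalIn F p) (hc : cenE p F E ≤ T) :
    ∀ X, X ≤ S → ∀ hX : F.IsFullyNormalized X, ∀ (R : Subgroup Ω) (C : FusionSystem R),
      C.IsComponentIn (normSys F X hX.1) p → R ≤ T := by
  have hF := hE.1.2.1
  refine down_induction fun X _ ih hX R C hC => ?_
  have := finite_of_le (normalizerIn_le S X)
  have hNp := isPGroup_of_le hS (normalizerIn_le S X)
  have hN := normSys_saturated hS hF hX
  by_cases hT : T ≤ X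
  · exact (le_cenE_of_isCMap hS hE hC.2.2.1 fun P f hf => ((component_isCMap_of_normal hNp hN hC
      (isNormal_normalizerSystem hX.1 (isNormalizerSystem_normSys F hX.1)) hf).of_sub
        (normSys_sub F hX.1)).anti hT).trans hc
  obtain ⟨D, hD, hD'⟩ := exists_local_weaklyNormal hS hE hX
  rcases component_dichotomy hNp hC hD with h | h
  · exact hC.2.2.1.ge.trans ((hyp_mono (sub_trans (IsSubnormalIn_sub h.1) hD') p).trans
      (hasPPowerIndexIn_iff.1 (pIndex_esSys hS hE)).2.1)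
  have hsc := Inv.sc hD.2.2
  have hW : X ⊔ T ≤ S := sup_le hX.1 (Inv.le hE.1.2.2)
  have := finite_of_le hW
  have hlt : X < normalizerIn (X ⊔ T) X := lt_normalizerIn (isPGroup_of_le hS hW)
    (lt_of_le_of_ne le_sup_left fun e => hT (le_sup_right.trans e.ge))
  have h1 := component_centSys hNp hD hC h
  generalize normalizerIn (X ⊔ T) X = Y at *
  have hY := fullyCentralized_of_sc_normSys hS hF hX hlt.le hsc
  have h2 : C.IsComponentIn (centSys F Y hY.1) p := IsComponentIn_congr h1 fun P f => by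
    rw [isMap_centSys, isMap_centSys, isCMap_normSys_iff hX.1 hlt.le hsc.1]
  obtain ⟨g, hg, hY'⟩ := sat_exists_fullyNormalized_map hS hF hY.1
  have hCN := centralizerIn_le_normalizerIn S Y
  obtain ⟨k, hk, hiso⟩ := exists_fIso_centSys hY hg (le_normalizerIn hY.1) hCN hY'.1
  have hR := IsSubnormalIn_le h2.1
  obtain ⟨C', hC'⟩ := FIso.exists_sub hiso.g C hR
  have := finite_of_le (centralizerIn_le S Y)
  have := finite_of_le (normalizerIn_le S (img Y g))
  have hn := isNormal_normalizerSystem hY'.1 (isNormalizerSystem_normSys F hY'.1)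
  have h3 := ih _ hY'.1 (by
    rw [(hg.mono (le_normalizerIn hY.1)).card_img]; exact card_lt_of_lt_of_le hlt hY.1) hY' _ C'
    (IsComponentIn_of_normal (IsComponentIn_congr (hiso.isComponentIn hC' h2) fun P f => by
      rw [isMap_centSys, isMap_centSys, isCMap_normSys_iff hY'.1 le_rfl hn.1])
      (centSys_normal (isPGroup_of_le hS (normalizerIn_le _ _)) (normSys_saturated hS hF hY') hn))
  intro x hx
  rw [← hiso.g.left x (hR hx)]
  exact hk.mem_of_stronglyClosed (Inv.sc hE.1.2.2) (mem_img_of_mem g (hCN (hR hx)))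
    (h3 (mem_imX_of_mem g hx))

/-- `E`-balance. -/
theorem layer_normSys_sub (hS : IsPGroup p S) (hX : F.IsFullyNormalized X) (hE : E.IsLayerOf F p)
    (hD : D.IsLayerOf (normSys F X hX.1) p) : D.IsSubsystemOf E := by
  have := finite_of_le (normalizerIn_le S X)
  have hNp := isPGroup_of_le hS (normalizerIn_le S X)
  obtain ⟨M, hM, hc⟩ := exists_normal_fitting hS hE
  have hMS := Inv.le hM.1.2.2
  have := finite_of_le hMS
  obtain ⟨D₁, h₁, h₁'⟩ := exists_local_weaklyNormal hS hM hX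
  obtain ⟨D₂, h₂, h₂'⟩ := exists_local_weaklyNormal hS hE.1 hX
  have h1 := sub_trans (layer_sub_of_le hNp hD h₁ fun R C hC => le_inf ((component_normSys_le hS hM
    ((cenE_le_of_fitting_le hS hM le_sup_left fun R C hC =>
      (le_of_isSubsystemOf (hE.2.1 R C hC)).trans le_sup_right).trans le_sup_left) X hX.1 hX R C
        hC).trans le_sup_right) ((IsSubnormalIn_le hC.1).trans inf_le_right)) h₁'
  have h2 : U ≤ T := (layer_hyp_eq hNp hD).ge.trans ((hyp_mono h1 p).trans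
    ((hyp_esSys hS hM).le.trans (hc.hyp_le_of_inner (isPGroup_of_le hS hMS))))
  exact sub_of_pIndex hS hD.1.1.1 (sub_trans (layer_sub_of_le hNp hD h₂ fun R C hC =>
    le_inf ((le_of_isSubsystemOf (hD.2.1 R C hC)).trans (h2.trans le_sup_right))
      ((IsSubnormalIn_le hC.1).trans inf_le_right)) h₂') h2 (pIndex_esSys hS hE.1)

end Cfsg.Agent.Fus
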