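import Cfsg.Agent.Fus.Black3
import Cfsg.Agent.FT.PRankTwo
import Cfsg.Agent.FT.Metacyclic
import Cfsg.Agent.Grp.CardProduct
import Mathlib.NumberTheory.Multiplicity

/-! Automorphisms of order `p` of metacyclic `p`-groups without cyclic subgroup of index `p`. -/

set_option autoImplicit false

namespace Cfsg.Agent.Fus.MetaAut

open Subgroup Cfsg.Agent.Fus.MC
open scoped commutatorElement

variable {L : Type*} [Group L] {p : ℕ}

theorem conj_pow_iter {l z : L} {k : ℕ} (h : l * z * l⁻¹ = z ^ k) (i : ℕ) :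
    l ^ i * z * (l ^ i)⁻¹ = z ^ (k ^ i) := by
  induction i with
  | zero => simp
  | succ i ih =>
    have e : l ^ (i + 1) * z * (l ^ (i + 1))⁻¹ = l * (l ^ i * z * (l ^ i)⁻¹) * l⁻¹ := by
      rw [pow_succ']; group
    rw [e, ih, ← conj_pow, h, ← pow_mul, pow_succ']

theorem comm_pow_left {l u : L} {k : ℕ} (h : l * ⁅l, u⁆ * l⁻¹ = ⁅l, u⁆ ^ k) (i : ℕ) :
    ⁅l ^ i, u⁆ = ⁅l, u⁆ ^ (∑ j ∈ Finset.range i, k ^ j) := by
  induction i with
  | zero => simp
  | succ i ih =>
    have e : ⁅l ^ (i + 1), u⁆ = l ^ i * ⁅l, u⁆ * (l ^ i)⁻¹ * ⁅l ^ i, u⁆ := by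
      simp only [commutatorElement_def, pow_succ]; group
    rw [e, conj_pow_iter h, ih, ← pow_add, Finset.sum_range_succ, add_comm]

variable [Finite L] [hp : Fact p.Prime]

theorem exists_conj_eq (hL : IsPGroup p L) {X : Subgroup L} [hX : X.Normal] (hc : IsCyclic X) {z : L}
    (hz : z ∈ X) (l : L) : ∃ t : ℕ, l * z * l⁻¹ = z ^ (1 + p * t) := by
  obtain ⟨x, hx⟩ := IsCyclic.exists_monoid_generator (α := X)
  obtain ⟨k, hk⟩ := hx ⟨l * x * l⁻¹, hX.conj_mem _ x.2 l⟩
  obtain ⟨j, hj⟩ := hx ⟨z, hz⟩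
  have hk' : (x : L) ^ k = l * x * l⁻¹ := by simpa using congrArg Subtype.val hk
  have hj' : (x : L) ^ j = z := by simpa using congrArg Subtype.val hj
  have h1 : l * z * l⁻¹ = z ^ k := by
    rw [← hj', ← conj_pow, ← hk', ← pow_mul, ← pow_mul, mul_comm]
  by_cases hz1 : z = 1
  · exact ⟨0, by simp [hz1]⟩
  obtain ⟨r, hr⟩ := hL l
  have h2 := conj_pow_iter h1 (p ^ r)
  rw [hr, one_mul, inv_one, mul_one] at h2
  obtain ⟨s, hs⟩ := (IsPGroup.iff_orderOf.1 hL) z
  have hpz : p ∣ orderOf z := by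
    rw [hs]
    refine dvd_pow_self p fun e => hz1 ?_
    rw [e, pow_zero] at hs
    exact orderOf_eq_one_iff.1 hs
  have h3 : 1 ≡ k ^ p ^ r [MOD p] := by
    have : z ^ 1 = z ^ k ^ p ^ r := by rw [pow_one]; exact h2
    exact (pow_eq_pow_iff_modEq.1 this).of_dvd hpz
  have h4 : (k : ZMod p) = 1 := by
    have := (ZMod.natCast_eq_natCast_iff _ _ _).2 h3
    rw [Nat.cast_pow, ZMod.pow_card_pow] at this
    simpa using this.symm
  have h5 : k % p = 1 := by
    have := (ZMod.natCast_eq_natCast_iff' k 1 p).1 (by simpa using h4)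
    rwa [Nat.mod_eq_of_lt hp.out.one_lt] at this
  refine ⟨k / p, ?_⟩
  rw [h1]
  congr 1
  rw [← h5, Nat.mod_add_div]

omit [Finite L] in
theorem pow_eq_one_of_sum (hp2 : p ≠ 2) (hL : IsPGroup p L) {z : L} {t : ℕ}
    (h : z ^ (∑ j ∈ Finset.range p, (1 + p * t) ^ j) = 1) : z ^ p = 1 := by
  have hodd : Odd p := hp.out.odd_of_ne_two hp2
  have h1 := @odd_sq_dvd_geom_sum₂_sub ℤ _ 1 t p hodd
  simp only [one_pow, mul_one] at h1
  obtain ⟨c, hc⟩ := h1
  have h2 : (z ^ p) ^ (1 + (p : ℤ) * c) = 1 := by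
    rw [← zpow_natCast, ← zpow_mul, ← h, ← zpow_natCast]
    congr 1
    push_cast
    linear_combination -hc
  obtain ⟨s, hs⟩ := (IsPGroup.iff_orderOf.1 hL) (z ^ p)
  have h3 : ((p : ℤ) ^ s) ∣ 1 + (p : ℤ) * c := by
    have := orderOf_dvd_iff_zpow_eq_one.2 h2
    rwa [hs, Nat.cast_pow] at this
  rcases Nat.eq_zero_or_pos s with rfl | hs0
  · exact orderOf_eq_one_iff.1 (by simpa using hs)
  · exfalso
    have h4 : (p : ℤ) ∣ 1 + (p : ℤ) * c := (dvd_pow_self _ hs0.ne').trans h3
    have h5 : (p : ℤ) ∣ 1 := (dvd_add_left (dvd_mul_right _ _)).1 h4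
    exact hp.out.one_lt.ne' (by exact_mod_cast Int.eq_one_of_dvd_one (by positivity) h5)

omit [Finite L] hp in
theorem comm_mem_of_quot {X : Subgroup L} [X.Normal] (hq : IsCyclic (L ⧸ X)) (l u : L) :
    ⁅l, u⁆ ∈ X := by
  rw [← QuotientGroup.eq_one_iff, ← QuotientGroup.mk'_apply, map_commutatorElement,
    commutatorElement_eq_one_iff_mul_comm]
  exact hq.isMulCommutative.1.1 _ _

/-- In a metacyclic `p`-group, `p` odd: `[l ^ p, u] = 1` implies `[l, u ^ p] = 1`. -/
theorem commute_pow (hp2 : p ≠ 2) (hL : IsPGroup p L) (hm : IsMetacyclic L) {l u : L}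
    (h : Commute (l ^ p) u) : Commute l (u ^ p) := by
  obtain ⟨X, hXn, hX, hq⟩ := hm
  have hz := comm_mem_of_quot hq l u
  obtain ⟨t, ht⟩ := exists_conj_eq hL hX hz l
  have h1 := comm_pow_left ht p
  rw [h.commutator_eq] at h1
  have h2 := pow_eq_one_of_sum hp2 hL h1.symm
  obtain ⟨t', ht'⟩ := exists_conj_eq hL hX (comm_mem_of_quot hq u l) u
  have h3 : ⁅u, l⁆ ^ p = 1 := by rw [← commutatorElement_inv, inv_pow, h2, inv_one]
  rw [pow_add, pow_mul, h3, one_pow, mul_one] at ht'
  have h4 := comm_pow_left ht' p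
  simp only [one_pow, Finset.sum_const, Finset.card_range, smul_eq_mul, mul_one] at h4
  rw [h3] at h4
  exact (commutatorElement_eq_one_iff_commute.1 h4).symm

/-- The subgroup generated by the `p`-th powers. -/
def agemo (p : ℕ) (L : Type*) [Group L] : Subgroup L := closure {y | ∃ x : L, y = x ^ p}

instance agemo_normal : (agemo p L).Normal := ⟨fun n hn g => by
  induction hn using closure_induction with
  | mem y hy =>
    obtain ⟨x, rfl⟩ := hy
    exact subset_closure ⟨g * x * g⁻¹, conj_pow.symm⟩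
  | one => simp
  | mul x y _ _ hx hy => simpa [mul_assoc] using mul_mem hx hy
  | inv x _ hx => simpa [mul_assoc] using inv_mem hx⟩

theorem card_le_sq {Q : Type*} [Group Q] [Finite Q] (hm : IsMetacyclic Q) (he : ∀ x : Q, x ^ p = 1) :
    Nat.card Q ≤ p ^ 2 := by
  obtain ⟨X, hXn, hX, hq⟩ := hm
  have h1 : Nat.card X ≤ p := FT.R2.card_le_of_isCyclic hp.out.pos hX fun x _ => he x
  have h2 : Nat.card (⊤ : Subgroup (Q ⧸ X)) ≤ p :=
    FT.R2.card_le_of_isCyclic hp.out.pos inferInstance fun x _ => by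
      obtain ⟨y, rfl⟩ := QuotientGroup.mk'_surjective X x
      rw [← map_pow, he, map_one]
  rw [card_top] at h2
  rw [card_eq_card_quotient_mul_card_subgroup X, pow_two]
  exact Nat.mul_le_mul h2 h1

theorem card_le_agemo (hm : IsMetacyclic L) : Nat.card L ≤ p ^ 2 * Nat.card (agemo p L) := by
  rw [card_eq_card_quotient_mul_card_subgroup (agemo p L)]
  refine Nat.mul_le_mul_right _ (card_le_sq
    (FT.R2.isMetacyclic_of_surjective _ (QuotientGroup.mk'_surjective _) hm) fun x => ?_)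
  obtain ⟨y, rfl⟩ := QuotientGroup.mk'_surjective _ x
  rw [← map_pow, QuotientGroup.mk'_apply, QuotientGroup.eq_one_iff]
  exact subset_closure ⟨y, rfl⟩

theorem exists_gen_agemo (hL : IsPGroup p L) (hc : IsCyclic (agemo p L)) :
    ∃ l : L, agemo p L = zpowers (l ^ p) := by
  obtain ⟨g, hg⟩ := (Subgroup.isCyclic_iff_exists_zpowers_eq_top _).mp hc
  obtain ⟨s, hs⟩ := (IsPGroup.iff_orderOf.1 hL) g
  by_cases h : ∀ l : L, l ^ p ∈ zpowers (g ^ p)
  · have h1 : g ∈ zpowers (g ^ p) := by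
      have : agemo p L ≤ zpowers (g ^ p) := (closure_le _).2 fun y ⟨x, hx⟩ => hx ▸ h x
      exact this (hg ▸ mem_zpowers g)
    rw [mem_zpowers_pow_iff, hs] at h1
    rcases Nat.eq_zero_or_pos s with rfl | hs0
    · refine ⟨1, ?_⟩
      rw [← hg, orderOf_eq_one_iff.1 (by simpa using hs : orderOf g = 1), one_pow]
    · exact absurd (Nat.dvd_gcd dvd_rfl (dvd_pow_self p hs0.ne') |>.trans h1.dvd)
        (by simpa using hp.out.one_lt.ne')
  · push Not at h
    obtain ⟨l, hl⟩ := h
    have h1 : l ^ p ∈ zpowers g := hg ▸ subset_closure ⟨l, rfl⟩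
    obtain ⟨k, hk⟩ := (mem_powers_iff_mem_zpowers).2 h1
    refine ⟨l, le_antisymm ?_ (zpowers_le.2 (subset_closure ⟨l, rfl⟩))⟩
    rw [← hg, zpowers_le, ← hk, mem_zpowers_pow_iff, hs]
    refine Nat.Coprime.pow_right _ ((hp.out.coprime_iff_not_dvd).2 fun ⟨c, hc⟩ => hl ?_).symm
    rw [← hk]
    exact ⟨c, by simp [hc, pow_mul]⟩

theorem not_isCyclic (hH : ∀ l : L, p * orderOf l < Nat.card L) : ¬ IsCyclic L := fun hc => by
  obtain ⟨g, hg⟩ := IsCyclic.exists_ofOrder_eq_natCard (α := L)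
  have := hH g
  rw [hg] at this
  have h2 := Nat.card_pos (α := L)
  nlinarith [hp.out.one_lt]

theorem omega_le_agemo (hp2 : p ≠ 2) (hL : IsPGroup p L) (hm : IsMetacyclic L)
    (hH : ∀ l : L, p * orderOf l < Nat.card L) : omegaOne p (⊤ : Subgroup L) ≤ agemo p L := by
  obtain ⟨hA, hA2⟩ := FT.R2.omega_metacyclic hp2 hL hm (not_isCyclic hH)
  by_cases hc : IsCyclic (agemo p L)
  · exfalso
    obtain ⟨l, hl⟩ := exists_gen_agemo hL hc
    have h1 := card_le_agemo (p := p) hm
    rw [hl, Nat.card_zpowers] at h1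
    by_cases h2 : l ^ p = 1
    · rw [h2, orderOf_one, mul_one] at h1
      obtain ⟨x, hx⟩ : ∃ x : L, x ≠ 1 := by
        have := card_le_of_le (le_top (a := omegaOne p (⊤ : Subgroup L)))
        rw [hA2, card_top] at this
        have : Nontrivial L := Finite.one_lt_card_iff_nontrivial.1
          ((Nat.one_lt_pow two_ne_zero hp.out.one_lt).trans_le this)
        exact exists_ne 1
      have h3 := FT.R2.prime_le_card (hL.to_subgroup (zpowers x)) (by simpa using hx)
      rw [Nat.card_zpowers] at h3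
      have := hH x
      nlinarith
    · obtain ⟨s, hs⟩ := (IsPGroup.iff_orderOf.1 hL) l
      have h3 : p ∣ orderOf l := by
        rw [hs]
        refine dvd_pow_self p fun e => h2 ?_
        rw [orderOf_eq_one_iff.1 (by simpa [e] using hs : orderOf l = 1), one_pow]
      rw [orderOf_pow_of_dvd hp.out.ne_zero h3] at h1
      have h4 := hH l
      rw [pow_two, mul_assoc, Nat.mul_div_cancel' h3] at h1
      omega
  · obtain ⟨E, hE, -, hEe, hE2⟩ := FT.R2.exists_normal_elem_le hp2 hL (agemo p L) hc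
    rw [← PLocal.eq_of_le_of_card_le (PLocal.isEA_le_omegaOne hEe le_top) (by rw [hA2, hE2])]
    exact hE

theorem pow_four_le (hp2 : p ≠ 2) (hL : IsPGroup p L) (hm : IsMetacyclic L)
    (hH : ∀ l : L, p * orderOf l < Nat.card L) : p ^ 3 < Nat.card L := by
  obtain ⟨hA, hA2⟩ := FT.R2.omega_metacyclic hp2 hL hm (not_isCyclic hH)
  obtain ⟨l, hl⟩ : ∃ l : L, l ^ p ≠ 1 := by
    by_contra! h
    have h1 : agemo p L ≤ ⊥ := (closure_le _).2 fun y ⟨x, hx⟩ => by simp [hx, h]
    have h2 := card_le_of_le ((omega_le_agemo hp2 hL hm hH).trans h1)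
    rw [hA2, card_bot] at h2
    exact (Nat.one_lt_pow two_ne_zero hp.out.one_lt).not_ge h2
  obtain ⟨s, hs⟩ := (IsPGroup.iff_orderOf.1 hL) l
  have h2 : 2 ≤ s := by
    by_contra! h
    exact hl (orderOf_dvd_iff_pow_eq_one.1 (by
      rw [hs]; simpa using pow_dvd_pow p (Nat.lt_succ_iff.1 h)))
  refine lt_of_le_of_lt ?_ (hH l)
  rw [hs, ← pow_succ']
  exact Nat.pow_le_pow_right hp.out.pos (by omega)

/-- An element whose `p`-th power lies in `Ω₁(L)` centralises `Ω₁(L)`. -/
theorem commute_of_pow_mem (hp2 : p ≠ 2) (hL : IsPGroup p L) (hm : IsMetacyclic L)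
    (hH : ∀ l : L, p * orderOf l < Nat.card L) {l x : L} (hl : l ^ p ∈ omegaOne p (⊤ : Subgroup L))
    (hx : x ∈ omegaOne p (⊤ : Subgroup L)) : Commute l x := by
  obtain ⟨hA, hA2⟩ := FT.R2.omega_metacyclic hp2 hL hm (not_isCyclic hH)
  have := PLocal.omegaOne_characteristic (p := p) (⊤ : Subgroup L)
  set A := omegaOne p (⊤ : Subgroup L) with hAd
  obtain ⟨Z, hZn, hZA, hZ⟩ := Grp.PChain.exists_normal_le_card hL A 1
    (by rw [hA2]; exact Nat.pow_le_pow_right hp.out.pos (by norm_num))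
  have hZc := Grp.PChain.le_center_of_card_eq_prime hL Z (by simpa using hZ)
  by_cases h : l ^ p ∈ Z
  · have h1 : agemo p L ≤ centralizer {l} := (closure_le _).2 fun y ⟨u, hu⟩ => by
      rw [hu]
      exact mem_centralizer_singleton_iff.2
        (commute_pow hp2 hL hm ((mem_center_iff.1 (hZc h)) u).symm).symm
    exact (mem_centralizer_singleton_iff.1 (h1 (omega_le_agemo hp2 hL hm hH hx))).symm
  · have h1 : Z ⊔ zpowers (l ^ p) = A := by
      refine PLocal.eq_of_le_of_card_le (sup_le hZA (zpowers_le.2 hl)) ?_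
      have := card_sup_zpowers_ge hL h
      rwa [hZ, ← pow_succ', ← hA2] at this
    have h2 : A ≤ centralizer {l} := by
      rw [← h1]
      refine sup_le (fun z hz => ?_) (zpowers_le.2 ?_)
      · exact mem_centralizer_singleton_iff.2 ((mem_center_iff.1 (hZc hz)) l).symm
      · exact mem_centralizer_singleton_iff.2 (Commute.pow_self l p)
    exact (mem_centralizer_singleton_iff.1 (h2 hx)).symm

/-- An endomorphism which is trivial modulo `Ω₁(L)` fixes `Ω₁(L)`. -/
theorem fix_of_mod (hp2 : p ≠ 2) (hL : IsPGroup p L) (hm : IsMetacyclic L)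
    (hH : ∀ l : L, p * orderOf l < Nat.card L) (φ : L →* L)
    (hφ : ∀ u, u⁻¹ * φ u ∈ omegaOne p (⊤ : Subgroup L)) {x : L}
    (hx : x ∈ omegaOne p (⊤ : Subgroup L)) : φ x = x := by
  obtain ⟨hA, hA2⟩ := FT.R2.omega_metacyclic hp2 hL hm (not_isCyclic hH)
  have := PLocal.omegaOne_characteristic (p := p) (⊤ : Subgroup L)
  have h1 : agemo p L ≤ φ.eqLocus (MonoidHom.id L) := (closure_le _).2 fun y ⟨u, hu⟩ => by
    have h2 := FT.R2.mem_upperCentralSeries_two_iff.1 (FT.R2.le_zTwo_of_card_sq hL _ hA2 (hφ u)) u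
    have h3 := hA.2 _ (hφ u)
    have h4 := Grp.CommPow.mul_pow_eq_of_odd_of_commute_right (h2 u) (h2 _)
      (hp.out.odd_of_ne_two hp2) (by rw [h3]; exact Commute.one_left u)
    rw [mul_inv_cancel_left, h3, mul_one] at h4
    change φ y = y
    rw [hu, map_pow, h4]
  exact h1 (omega_le_agemo hp2 hL hm hH hx)

omit [Finite L] hp in
theorem pRankLE_of_isMC {G : Type*} [Group G] [Finite G] [Fact (Nat.Prime 3)] {n : ℕ}
    (h : IsMC 3 n G) (hn : 5 ≤ n) : PRankLE 3 2 G := fun H hH he => by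
  by_cases hK : H ≤ K G 1
  · simpa using h.card_le_pow_of_le h.K_one_le_of_three hn (L := ⊥) he hK
  · obtain ⟨s, hs, hs'⟩ := SetLike.not_le_iff_exists.1 hK
    refine (card_le_of_le fun x hx => ?_).trans
      (h.card_centralizer_le (h.U_of_not_mem h.K_one_le_of_three hs'))
    exact mem_centralizer_singleton_iff.2 (congrArg Subtype.val (hH.1.1 ⟨x, hx⟩ ⟨s, hs⟩))

section Semi

variable {a : MulAut L}

/-- The semidirect product of the statement. -/
abbrev SD (a : MulAut L) := SemidirectProduct L ↥(zpowers a) (zpowers a).subtype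

omit [Finite L] hp in
theorem card_SD (ha : orderOf a = p) : Nat.card (SD a) = Nat.card L * p := by
  rw [SemidirectProduct.card, Nat.card_zpowers, ha]

instance finite_SD : Finite (SD a) := Finite.of_equiv _ SemidirectProduct.equivProd.symm

/-- The generator of the complement. -/
def bb (a : MulAut L) : SD a := SemidirectProduct.inr ⟨a, mem_zpowers a⟩

omit [Finite L] hp in
theorem bb_pow (ha : orderOf a = p) : bb a ^ p = 1 := by
  rw [bb, ← map_pow]
  have : (⟨a, mem_zpowers a⟩ : zpowers a) ^ p = 1 := Subtype.ext (by simp [← ha])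
  rw [this, map_one]

omit [Finite L] hp in
theorem bb_conj (u : L) :
    bb a * SemidirectProduct.inl u * (bb a)⁻¹ = (SemidirectProduct.inl (a u) : SD a) := by
  rw [bb, ← map_inv, ← SemidirectProduct.inl_aut]
  rfl

omit [Finite L] in
theorem bb_not_mem (ha : orderOf a = p) :
    bb a ∉ (SemidirectProduct.inl : L →* SD a).range := fun h => by
  rw [SemidirectProduct.range_inl_eq_ker_rightHom, MonoidHom.mem_ker, bb,
    SemidirectProduct.rightHom_inr] at h
  have : a = 1 := congrArg Subtype.val h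
  rw [this, orderOf_one] at ha
  exact hp.out.one_lt.ne ha

theorem not_hasE (hp2 : p ≠ 2) (hL : IsPGroup p L) (hm : IsMetacyclic L)
    (hH : ∀ l : L, p * orderOf l < Nat.card L) (ha : orderOf a = p) {x : L} (hx : x ^ p = 1)
    (hax : a x ≠ x) : ¬ HasE p (SD a) := by
  rintro ⟨N, hN, hN3, hNe⟩
  obtain ⟨hA, hA2⟩ := FT.R2.omega_metacyclic hp2 hL hm (not_isCyclic hH)
  have hi := SemidirectProduct.inl_injective (N := L) (φ := (zpowers a).subtype)
  have h1 : ∀ u : L, (SemidirectProduct.inl u : SD a) ∈ N → u ∈ omegaOne p (⊤ : Subgroup L) :=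
    fun u hu => PLocal.mem_omegaOne (mem_top _) (hi (by rw [map_pow, hNe _ hu, map_one]))
  have hc : Nat.card (zpowers a) = p := by rw [Nat.card_zpowers, ha]
  have : Fact (Nat.card (zpowers a)).Prime := ⟨hc ▸ hp.out⟩
  rcases (N.map SemidirectProduct.rightHom).eq_bot_or_eq_top_of_prime_card with h | h
  · have h2 : N ≤ (omegaOne p (⊤ : Subgroup L)).map SemidirectProduct.inl := fun g hg => by
      have : g ∈ (SemidirectProduct.inl : L →* SD a).range := by
        rw [SemidirectProduct.range_inl_eq_ker_rightHom]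
        exact (Subgroup.map_eq_bot_iff _).1 h hg
      obtain ⟨u, rfl⟩ := this
      exact mem_map_of_mem _ (h1 u hg)
    have h3 := card_le_of_le h2
    rw [card_map_of_injective hi, hA2, hN3] at h3
    exact (Nat.pow_lt_pow_right hp.out.one_lt (by norm_num)).not_ge h3
  · obtain ⟨c, hcN, hc'⟩ : (⟨a, mem_zpowers a⟩ : zpowers a) ∈ N.map SemidirectProduct.rightHom :=
      h ▸ mem_top _
    have h2 : c = SemidirectProduct.inl c.left * bb a := by
      rw [bb, ← hc', SemidirectProduct.rightHom_eq_right, SemidirectProduct.inl_left_mul_inr_right]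
    set l := c.left
    have h3 : l⁻¹ ^ p ∈ omegaOne p (⊤ : Subgroup L) := by
      refine h1 _ ?_
      rw [← QuotientGroup.eq_one_iff, ← QuotientGroup.mk'_apply, map_pow, map_pow]
      have : QuotientGroup.mk' N (SemidirectProduct.inl l⁻¹ : SD a) = QuotientGroup.mk' N (bb a) := by
        rw [QuotientGroup.mk'_apply, QuotientGroup.mk'_apply, QuotientGroup.eq, map_inv, inv_inv, ← h2]
        exact hcN
      rw [this, ← map_pow, bb_pow ha, map_one]
    have hx' : a x ∈ omegaOne p (⊤ : Subgroup L) :=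
      PLocal.mem_omegaOne (mem_top _) (by rw [← map_pow, hx, map_one])
    have h4 := fix_of_mod hp2 hL hm hH ((MulAut.conj l).toMonoidHom.comp a.toMonoidHom) (fun u => by
      refine h1 _ ?_
      have e : (SemidirectProduct.inl (u⁻¹ * (l * a u * l⁻¹)) : SD a) =
          (SemidirectProduct.inl u)⁻¹ * c * (SemidirectProduct.inl u)⁻¹⁻¹ * c⁻¹ := by
        rw [h2]
        simp only [map_mul, map_inv, ← bb_conj]
        group
      change (SemidirectProduct.inl (u⁻¹ * (l * a u * l⁻¹)) : SD a) ∈ N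
      rw [e]
      exact mul_mem (hN.conj_mem _ hcN _) (inv_mem hcN)) (PLocal.mem_omegaOne (mem_top x) hx)
    have h5 := commute_of_pow_mem hp2 hL hm hH h3 hx'
    change l * a x * l⁻¹ = x at h4
    rw [mul_assoc, ← h5.eq, mul_inv_cancel_left] at h4
    exact hax h4

theorem not_isMetacyclic (hp2 : p ≠ 2) (hL : IsPGroup p L) (hm : IsMetacyclic L)
    (hH : ∀ l : L, p * orderOf l < Nat.card L) (ha : orderOf a = p) (hG : IsPGroup p (SD a)) :
    ¬ IsMetacyclic (SD a) := fun h => by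
  obtain ⟨hA, hA2⟩ := FT.R2.omega_metacyclic hp2 hL hm (not_isCyclic hH)
  have hi := SemidirectProduct.inl_injective (N := L) (φ := (zpowers a).subtype)
  obtain ⟨-, hB2⟩ := FT.R2.omega_metacyclic hp2 hG h fun hc =>
    not_isCyclic hH (isCyclic_of_injective _ hi)
  have h1 : (omegaOne p (⊤ : Subgroup L)).map (SemidirectProduct.inl : L →* SD a) =
      omegaOne p ⊤ := by
    refine PLocal.eq_of_le_of_card_le ?_ (by rw [card_map_of_injective hi, hA2, hB2])
    rintro _ ⟨u, hu, rfl⟩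
    exact PLocal.mem_omegaOne (mem_top _) (by rw [← map_pow, hA.2 u hu, map_one])
  have h2 : bb a ∈ omegaOne p (⊤ : Subgroup (SD a)) := PLocal.mem_omegaOne (mem_top _) (bb_pow ha)
  rw [← h1] at h2
  exact bb_not_mem ha (map_le_range _ _ h2)

theorem exists_moved (hp2 : p ≠ 2) (hL : IsPGroup p L) (hm : IsMetacyclic L)
    (hH : ∀ l : L, p * orderOf l < Nat.card L) (ha : orderOf a = p) (hG : IsPGroup p (SD a))
    (hr : PRankLE p 2 (SD a)) : ∃ x : L, orderOf x = p ∧ a x ≠ x := by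
  by_contra! h
  obtain ⟨hA, hA2⟩ := FT.R2.omega_metacyclic hp2 hL hm (not_isCyclic hH)
  have hi := SemidirectProduct.inl_injective (N := L) (φ := (zpowers a).subtype)
  have hfix : ∀ u ∈ omegaOne p (⊤ : Subgroup L), a u = u := fun u hu => by
    by_cases h1 : u = 1
    · rw [h1, map_one]
    · exact h u (orderOf_eq_prime (hA.2 u hu) h1)
  set A := (omegaOne p (⊤ : Subgroup L)).map (SemidirectProduct.inl : L →* SD a) with hAd
  have hb : bb a ∈ centralizer (A : Set (SD a)) := by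
    rintro _ ⟨u, hu, rfl⟩
    have := bb_conj (a := a) u
    rw [hfix u hu, mul_inv_eq_iff_eq_mul] at this
    exact this.symm
  have hAe : IsElementaryAbelian p A := PLocal.isEA_map hA _
  have hE : IsElementaryAbelian p (zpowers (bb a) ⊔ A : Subgroup (SD a)) :=
    PLocal.isEA_sup ⟨inferInstance, fun y ⟨k, hk⟩ => by
      rw [← hk, ← zpow_natCast, ← zpow_mul, mul_comm, zpow_mul, zpow_natCast, bb_pow ha, one_zpow]⟩
      hAe (zpowers_le.2 hb)
  have h1 := hr _ hE.1 hE.2
  have h2 := card_sup_zpowers_ge hG (A := A) fun e => bb_not_mem ha (map_le_range _ _ e)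
  rw [sup_comm, hAd, card_map_of_injective hi, hA2, ← pow_succ'] at h2
  exact (Nat.pow_lt_pow_right hp.out.one_lt (by norm_num)).not_ge (h2.trans h1)

end Semi

theorem lt_card (hL : IsPGroup p L) (hnc : ∀ C : Subgroup L, IsCyclic C → C.index ≠ p)
    [Nontrivial L] (l : L) : p * orderOf l < Nat.card L := by
  obtain ⟨j, hj⟩ := hL.index (zpowers l)
  have h1 := (zpowers l).card_mul_index
  rw [Nat.card_zpowers, hj] at h1
  have h0 := orderOf_pos l
  rcases j with _ | _ | j
  · exfalso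
    rw [pow_zero, mul_one] at h1
    obtain ⟨s, hs⟩ := (IsPGroup.iff_orderOf.1 hL) l
    have h3 : p ∣ orderOf l := by
      rw [hs]
      refine dvd_pow_self p fun e => ?_
      rw [hs, e, pow_zero] at h1
      exact Finite.one_lt_card.ne h1
    refine hnc (zpowers (l ^ p)) inferInstance ?_
    have h4 := (zpowers (l ^ p)).card_mul_index
    rw [Nat.card_zpowers, orderOf_pow_of_dvd hp.out.ne_zero h3, ← h1] at h4
    obtain ⟨c, hc⟩ := h3
    rw [hc, Nat.mul_div_cancel_left _ hp.out.pos, mul_comm p] at h4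
    exact Nat.eq_of_mul_eq_mul_left (Nat.pos_of_ne_zero fun e => by simp [hc, e] at h0) h4
  · exact absurd (by simpa using hj) (hnc _ inferInstance)
  · rw [← h1, mul_comm]
    refine Nat.mul_lt_mul_of_pos_left ?_ h0
    simpa using Nat.pow_lt_pow_right hp.out.one_lt (show 1 < j + 1 + 1 by omega)

theorem main (hp2 : p ≠ 2) (hL : IsPGroup p L) (hm : IsMetacyclic L)
    (hnc : ∀ C : Subgroup L, IsCyclic C → C.index ≠ p) (a : MulAut L) (ha : orderOf a = p) (m : ℕ)
    (hc : Nat.card L = p ^ m) :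
    (∃ x : L, orderOf x = p ∧ a x ≠ x) ↔ (p = 3 ∧ Group.nilpotencyClass (SD a) = m) := by
  have : Nontrivial L := by
    by_contra h
    rw [not_nontrivial_iff_subsingleton] at h
    have : a = 1 := MulEquiv.ext fun _ => Subsingleton.elim _ _
    rw [this, orderOf_one] at ha
    exact hp.out.one_lt.ne ha
  have hH := lt_card hL hnc
  have hcG : Nat.card (SD a) = p ^ (m + 1) := by rw [card_SD ha, hc, pow_succ]
  have hG : IsPGroup p (SD a) := IsPGroup.of_card hcG
  have hnm := not_isMetacyclic hp2 hL hm hH ha hG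
  constructor
  · rintro ⟨x, hx, hax⟩
    have hE := not_hasE hp2 hL hm hH ha (hx ▸ pow_orderOf_eq_one x) hax
    have h3 : p = 3 := by
      by_contra h
      have := hp.out.two_le
      exact (isMetacyclic_or_hasE (by omega) hG).elim hnm hE
    subst h3
    obtain ⟨n, hn⟩ := (blackburn_three _ hG hE).resolve_left hnm
    have : n = m + 1 := Nat.pow_right_injective (by norm_num : 2 ≤ 3) (hn.card.symm.trans hcG)
    exact ⟨rfl, by rw [hn.cl, this, Nat.add_sub_cancel]⟩
  · rintro ⟨rfl, h⟩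
    have h4 := pow_four_le hp2 hL hm hH
    rw [hc, Nat.pow_lt_pow_iff_right (by norm_num)] at h4
    exact exists_moved hp2 hL hm hH ha hG
      (pRankLE_of_isMC (n := m + 1) ⟨hcG, by rw [h, Nat.add_sub_cancel], by omega⟩ (by omega))

end Cfsg.Agent.Fus.MetaAut
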