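import Mathlib
import Cfsg.Prelude.Def_FusionReduction
import Cfsg.Agent.Fus.ProdES

/-!
Residual limits.
-/

set_option autoImplicit false

namespace Cfsg.Agent.Fus

open Cfsg Cfsg.FusionSystem

universe u

variable {Ω : Type u} [Group Ω] {p : ℕ}

theorem resLimit_of_stable {V T : Subgroup Ω} {L : FusionSystem V} {E : FusionSystem T}
    (h : L.IsResidualLimitOf E p) : Fact p.Prime → Finite T → IsPGroup p T → E.hyperfocalSubgroup p = T →
      E.IsPPrimeResidual p E → ∀ P, L.Hom P = E.Hom P := by
  induction h with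
  | stable => exact fun _ _ _ _ _ _ => rfl
  | @step T L E p D D' h1 h2 _ ih =>
    intro hp _ hT e hE
    have key : ∀ (U : Subgroup Ω) (D D' : FusionSystem U), U = T → D.IsSaturated p →
        D.HasPPowerIndexIn E p → D.IsPPrimeResidual p D' → D'.hyperfocalSubgroup p = U ∧
        D'.IsPPrimeResidual p D' ∧ ∀ P, D'.Hom P = E.Hom P := by
      rintro U D D' rfl h1 h2 h3
      obtain rfl := pIndex_unique hT h1 h2 hE.1 (hasPPowerIndexIn_self E)
      obtain rfl := isPPrimeResidual_unique h3 hE
      exact ⟨e, hE, fun _ => rfl⟩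
    obtain ⟨h3, h4, h5⟩ := key _ D D' e h1.1 h1.2 h2
    exact fun P => (ih hp (finite_of_le (hyp_le E p)) (isPGroup_of_le hT (hyp_le E p)) h3 h4 P).trans
      (h5 P)

theorem resLimit_eq_of_pIndex {U S : Subgroup Ω} {L : FusionSystem U} {F : FusionSystem S}
    (h : L.IsResidualLimitOf F p) : Fact p.Prime → Finite S → IsPGroup p S → F.IsSaturated p →
      ∀ {T V : Subgroup Ω} {E : FusionSystem T} {M : FusionSystem V}, E.IsSaturated p →
      E.HasPPowerIndexIn F p → M.IsResidualLimitOf E p → ∀ P, L.Hom P = M.Hom P := by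
  induction h with
  | @stable F p h1 h2 =>
    intro hp _ hS hF T V E M hE hi hM P
    obtain rfl : T = U := le_antisymm (le_of_isSubsystemOf hi.1) (h1.ge.trans hi.2.1)
    obtain rfl := pIndex_unique hS hE hi hF (hasPPowerIndexIn_self F)
    exact (resLimit_of_stable hM hp ‹_› hS h1 h2 P).symm
  | @step S L F p D D' h1 h2 h3 ih =>
    intro hp _ hS hF T V E M hE hi hM P
    have e := hyp_eq_of_pIndex hS hi
    have := finite_of_le (hyp_le F p)
    have hH := isPGroup_of_le hS (hyp_le F p)
    cases hM with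
    | stable _ _ h4 h5 =>
      obtain rfl : T = F.hyperfocalSubgroup p := h4.symm.trans e
      obtain rfl := pIndex_unique hS hE hi h1.1 h1.2
      obtain rfl := isPPrimeResidual_unique h2 h5
      exact resLimit_of_stable h3 hp this hH h4 h5 P
    | step _ _ D₂ D₂' h4 h5 h6 =>
      have key : ∀ (W : Subgroup Ω) (D₂ D₂' : FusionSystem W), W = F.hyperfocalSubgroup p →
          D₂.IsSaturated p → D₂.HasPPowerIndexIn F p → D₂.IsPPrimeResidual p D₂' →
          D₂'.HasPPowerIndexIn D' p := by
        rintro W D₂ D₂' rfl h4 h5 h6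
        obtain rfl := pIndex_unique hS h4 h5 h1.1 h1.2
        obtain rfl := isPPrimeResidual_unique h2 h6
        exact hasPPowerIndexIn_self _
      exact ih hp this hH h2.1 h5.1 (key _ D₂ D₂' e h4.1 (HasPPowerIndexIn_trans h4.2 hi e.ge) h5) h6 P

end Cfsg.Agent.Fus
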