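import Mathlib
import Cfsg.Prelude.Def_Local
import Cfsg.Agent.Fus.ResLimit
import Cfsg.Agent.Fus.CompMeet
import Cfsg.Agent.Fus.CentE

/-! Residual limits as largest stable subnormal subsystems; normal envelopes of a normal subsystem. -/

set_option autoImplicit false

namespace Cfsg.Agent.Fus

open Cfsg Cfsg.FusionSystem

universe u

theorem mem_of_pow_mem_coprime {G : Type*} [Group G] {H : Subgroup G} {a : G} {m n : ℕ}
    (h : m.Coprime n) (hm : a ^ m ∈ H) (hn : a ^ n ∈ H) : a ∈ H := by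
  have := H.mul_mem (H.zpow_mem hm (Nat.gcdA m n)) (H.zpow_mem hn (Nat.gcdB m n))
  rwa [← zpow_natCast, ← zpow_natCast, ← zpow_mul, ← zpow_mul, ← zpow_add, ← Nat.gcd_eq_gcd_ab,
    h.gcd_eq_one, Nat.cast_one, zpow_one] at this

/-- Downward induction along a `p`-solvable series of `A / B`. -/
theorem pSolvable_chain_induction {G : Type*} [Group G] {p : ℕ} {A B : Subgroup G} (hBA : B ≤ A)
    [(B.subgroupOf A).Normal] (h : IsPSolvable p (A ⧸ B.subgroupOf A)) {M : Subgroup G → Prop}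
    (h0 : M A) (hs : ∀ K K', B ≤ K → K ≤ A → (∀ g ∈ A, ∀ k ∈ K, g * k * g⁻¹ ∈ K) →
      ((∀ β ∈ K', (orderOf β).Coprime p → β ∈ K) ∨ (∀ β ∈ K', ∀ k : ℕ, β ^ p ^ k ∈ K → β ∈ K)) →
      M K' → M K) : M B := by
  obtain ⟨n, H, h1, h2, -, h4, h5⟩ := h
  let π := QuotientGroup.mk' (B.subgroupOf A)
  let K : Fin (n + 1) → Subgroup G := fun i => ((H i).comap π).map A.subtype
  have hK : ∀ i (a : A), (a : G) ∈ K i ↔ π a ∈ H i := fun i a =>
    ⟨fun ⟨b, hb, e⟩ => by rwa [← show b = a from Subtype.ext e], fun ha => ⟨a, ha, rfl⟩⟩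
  have key : ∀ i, M (K i) := by
    refine Fin.reverseInduction ?_ fun i ih => ?_
    · have : K (Fin.last n) = A := by simp [K, h2, ← MonoidHom.range_eq_map]
      rwa [this]
    · have := h4 i.castSucc
      refine hs _ _ (fun b hb => (hK _ ⟨b, hBA hb⟩).2 ?_) (Subgroup.map_subtype_le _) ?_ ?_ ih
      · rw [show π ⟨b, hBA hb⟩ = 1 from (QuotientGroup.eq_one_iff _).2 hb]
        exact Subgroup.one_mem _
      · rintro g hg _ ⟨k, hk, rfl⟩
        refine (hK _ (⟨g, hg⟩ * k * ⟨g, hg⟩⁻¹)).2 ?_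
        rw [map_mul, map_mul, map_inv]
        exact this.conj_mem _ hk _
      · rcases h5 i with ⟨m, hm⟩ | hm
        · left
          rintro _ ⟨b, hb, rfl⟩ hc
          refine (hK _ b).2 (mem_of_pow_mem_coprime (hc.pow_right m) ?_
            (hm ▸ Subgroup.pow_relIndex_mem _ hb))
          rw [Subgroup.coe_subtype, Subgroup.orderOf_coe, ← map_pow, pow_orderOf_eq_one, map_one]
          exact Subgroup.one_mem _
        · right
          rintro _ ⟨b, hb, rfl⟩ k hk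
          refine (hK _ b).2 (mem_of_pow_mem_coprime (hm.pow_right k)
            (Subgroup.pow_relIndex_mem _ hb) ?_)
          rw [← map_pow]
          exact (hK _ _).1 hk
  have : K 0 = B := by
    simp only [K, h1]
    rw [MonoidHom.comap_bot, QuotientGroup.ker_mk', Subgroup.subgroupOf_map_subtype,
      inf_eq_left.2 hBA]
  exact this ▸ key 0

variable {Ω : Type u} [Group Ω] {p : ℕ}

theorem resLimit_spec {V S : Subgroup Ω} {L : FusionSystem V} {F : FusionSystem S}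
    (h : L.IsResidualLimitOf F p) : Fact p.Prime → Finite S → IsPGroup p S → F.IsSaturated p →
      L.IsSaturated p ∧ L.hyperfocalSubgroup p = V ∧ ppRes p L = L ∧ L.IsSubnormalIn F p ∧
      ∀ {R : Subgroup Ω} (C : FusionSystem R), C.hyperfocalSubgroup p = R → ppRes p C = C →
        C.IsSubnormalIn F p → C.IsSubsystemOf L := by
  induction h with
  | stable F p h1 h2 =>
    intro hp _ hS hF
    exact ⟨hF, h1, (eq_ppRes hS hF h2).symm, IsSubnormalIn_of_normal (isNormalIn_self hF),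
      fun C _ _ hC => IsSubnormalIn_sub hC⟩
  | @step S L F p D D' h1 h2 h3 ih =>
    intro hp _ hS hF
    have := finite_of_le (hyp_le F p)
    have hH := isPGroup_of_le hS (hyp_le F p)
    have hD := isPResidual_normal hS hF h1
    obtain rfl := eq_ppRes hH h1.1 h2
    have hD' := ppRes_normal_of_weaklyNormal hS hD.1
    obtain ⟨a, b, c, d, e⟩ := ih hp this hH h2.1
    refine ⟨a, b, c, IsSubnormalIn_trans d (IsSubnormalIn_of_normal hD'), fun C e1 e2 hC => e C e1 e2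
      (subnormal_of_le hS (IsSubnormalIn_saturated hC hF) e2 hC hD'.1 ?_)⟩
    exact e1.ge.trans (hyp_mono (IsSubnormalIn_sub hC) p)

variable {S T U V W : Subgroup Ω} {F : FusionSystem S} {E : FusionSystem T} {D : FusionSystem U}
  {L : FusionSystem V} {M : FusionSystem W} [hp : Fact p.Prime] [Finite S]

theorem resLimit_subnormal_of_le (hS : IsPGroup p S) (hL : L.IsResidualLimitOf F p)
    (hE : E.IsWeaklyNormalIn F p) (hV : V ≤ T) : L.IsSubnormalIn E p := by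
  obtain ⟨a, -, c, d, -⟩ := resLimit_spec hL hp ‹_› hS hE.2.1
  exact subnormal_of_le hS a c d hE hV

/-- A normal subsystem containing the Sylow subgroup of the residual limit has the same residual limit. -/
theorem resLimit_eq_of_le (hS : IsPGroup p S) (hL : L.IsResidualLimitOf F p)
    (hE : E.IsNormalIn F p) (hV : V ≤ T) (hM : M.IsResidualLimitOf E p) (P : Subgroup Ω) :
    L.Hom P = M.Hom P := by
  have hT := Inv.le hE.1.2.2
  obtain ⟨-, b, c, -, e⟩ := resLimit_spec hL hp ‹_› hS hE.1.2.1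
  obtain ⟨-, b', c', d', e'⟩ := resLimit_spec hM hp (finite_of_le hT) (isPGroup_of_le hS hT) hE.1.1
  exact Set.Subset.antisymm (e' L b c (resLimit_subnormal_of_le hS hL hE.1 hV) P)
    (e M b' c' (IsSubnormalIn_trans d' (IsSubnormalIn_of_normal hE)) P)

omit hp in
theorem isNormalIn_of_centralizerIn_le (hE : E.IsWeaklyNormalIn F p) (h : centralizerIn S T ≤ T) :
    E.IsNormalIn F p :=
  normalIn_iff.2 ⟨hE, fun α hα => ⟨afn α, ((isMap_afn le_rfl hα).of_sub (Inv.sub hE.2.2)).mono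
    (sup_le le_rfl h), fun _ _ => rfl, fun c hc => by
      have h1 : afn α c ∈ centralizerIn T T := (isMap_afn le_rfl hα).mem_centralizerIn_of_img le_rfl
        (img_afn α) (h hc) ⟨h hc, hc.2⟩
      exact Subgroup.mul_mem _ (Subgroup.inv_mem _ ⟨h hc, hc.2⟩) h1⟩⟩

theorem stronglyClosed_NK (hS : IsPGroup p S) (hF : F.IsSaturated p) (hT : F.StronglyClosed T)
    (hU : F.StronglyClosed U) {K : Subgroup (MulAut T)} (hI : Inn T ≤ K) (hTU : T ≤ U)
    (hn : ∀ γ ∈ F.autGroup T, ∀ κ ∈ K, γ * κ * γ⁻¹ ∈ K) : F.StronglyClosed (NK U T K) := by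
  refine stronglyClosed_iff.2 ⟨NK_le.trans hU.1, fun P f hf x hx ⟨hxU, κ, hκ, e⟩ => ?_⟩
  obtain ⟨g, hg, e'⟩ := exists_map_sup_stronglyClosed hS hF hT hf
  obtain ⟨γ, hγ, eγ⟩ := (hg.mono le_sup_right).exists_aut (hg.img_stronglyClosed hT le_sup_right)
  have h1 : g x ∈ NK U T K := ⟨hg.mem_of_stronglyClosed hU (Subgroup.mem_sup_left hx) hxU,
    γ * κ * γ⁻¹, hn γ hγ κ hκ, fun y hy => by
      have h2 := afn_mem γ⁻¹ hy
      rw [afn_mul _ _ hy, afn_mul _ _ h2, e _ h2, eγ _ (e _ h2 ▸ afn_mem κ h2),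
        hg.map_conj (Subgroup.mem_sup_left hx) (Subgroup.mem_sup_right h2), ← eγ _ h2,
        afn_afn_inv _ hy]⟩
  have h2 : T ≤ NK U T K := fun t ht => ⟨hTU ht, conjAut T t (le_normalizerIn le_rfl ht).2,
    hI (mem_Inn.2 ⟨t, ht, fun y hy => afn_conjAut _ hy⟩), fun y hy => afn_conjAut _ hy⟩
  simpa using Subgroup.mul_mem _ h1 (Subgroup.inv_mem _ (h2 (e' x hx)))

/-- Frattini argument at a weakly closed subgroup. -/
theorem exists_ppSub_mul_top (hS : IsPGroup p S) (hF : F.IsSaturated p) (hT : F.WeaklyClosed T)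
    {γ : MulAut T} (hγ : γ ∈ F.autGroup T) : ∃ κ ∈ ppSub p (F.autGroup T), ∃ β ∈ F.autGroup S,
      ∃ β' : MulAut T, (∀ x ∈ T, afn β' x = afn β x) ∧ γ = κ * β' := by
  obtain ⟨κ, hκ, g, hg, e⟩ := exists_mul_ext hS hF (fullyNormalized_of_weaklyClosed hT)
    (ppSub_le p _) (fun γ hγ κ hκ => conj_mem_ppSub hγ hκ) (le_normalizerIn_of_weaklyClosed hT)
    (le_ppSub_of_isPGroup (isPGroup_autInducedBy hS T) (autInducedBy_le_autGroup F hT.1)) hγ
  obtain ⟨β, hβ, eβ⟩ := (hg.mono le_sup_left).exists_aut' fun x hx =>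
    hg.mem (Subgroup.mem_sup_left hx)
  refine ⟨κ, hκ, β, hβ, κ⁻¹ * γ, fun x hx => ?_, by group⟩
  rw [afn_mul _ _ hx, (e x hx).1, afn_inv_afn _ (e x hx).2, eβ x (hT.1 hx)]

/-- The data carried along the construction of the normal envelope. -/
def Env (p : ℕ) (F : FusionSystem S) (E : FusionSystem T) (K : Subgroup (MulAut T)) : Prop :=
  ∃ (U : Subgroup Ω) (D : FusionSystem U), D.IsNormalIn F p ∧ T ⊔ centralizerIn S T ≤ U ∧
    E.IsSubsystemOf D ∧ D.autGroup T ≤ K ∧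
    ∀ (V : Subgroup Ω) (L : FusionSystem V), L.IsResidualLimitOf F p → V ≤ U

theorem Env.step_p (hS : IsPGroup p S) (hE : E.IsNormalIn F p) {K K' : Subgroup (MulAut T)}
    (hK : E.autGroup T ≤ K) (hn : ∀ γ ∈ F.autGroup T, ∀ κ ∈ K, γ * κ * γ⁻¹ ∈ K)
    (hp' : ∀ β ∈ K', (orderOf β).Coprime p → β ∈ K) (h : Env p F E K') : Env p F E K := by
  obtain ⟨U, D, hD, hU, hED, hA, hL⟩ := h
  have hT := Inv.sc hE.1.2.2
  have sU := Inv.sc hD.1.2.2
  have := finite_of_le sU.1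
  have hUp := isPGroup_of_le hS sU.1
  have hTU : T ≤ U := le_sup_left.trans hU
  have hI : Inn T ≤ K := (inn_le_autGroup E le_rfl).trans hK
  have hTD := stronglyClosed_of_sub (Inv.sub hD.1.2.2) hT hTU
  have h1 : D.hyperfocalSubgroup p ≤ NK U T K := (hyp_le_NK hUp hD.1.1 hTD).trans
    (NK_mono (sup_le (opSub_le_iff.2 fun β hβ hc => hp' β (hA hβ) hc) hI))
  obtain ⟨D₁, hD₁, hi⟩ := exists_pIndex hUp hD.1.1 NK_le h1
  have s₁ := stronglyClosed_NK hS hE.1.2.1 hT sU hI hTU hn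
  have h2 : T ≤ NK U T K := fun t ht => ⟨hTU ht, conjAut T t (le_normalizerIn le_rfl ht).2,
    hI (mem_Inn.2 ⟨t, ht, fun y hy => afn_conjAut _ hy⟩), fun y hy => afn_conjAut _ hy⟩
  refine ⟨_, D₁, normal_of_pIndex hS hD hD₁ hi s₁, sup_le h2 fun c hc => centralizerIn_le_NK
    ⟨hU (Subgroup.mem_sup_right hc), hc.2⟩, sub_of_pIndex hUp hE.1.1 hED h2 hi, fun γ hγ => ?_,
    fun V L hL' => ?_⟩
  · have := finite_of_le s₁.1
    have := finite_of_le hT.1
    obtain ⟨o, ho, b, hb, -, rfl⟩ := (fullyAutomized_iff.1 (sat_fullyAutomized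
      (isPGroup_of_le hS s₁.1) hD₁ (fullyNormalized_of_weaklyClosed (weaklyClosed_of_stronglyClosed
        (stronglyClosed_of_sub hi.1 hTD h2))))).2.exists_opSub_mul hγ
    refine K.mul_mem (opSub_le_iff.2 (fun β hβ hc => hp' β (hA (autGroup_mono hi.1 T hβ)) hc) ho) ?_
    obtain ⟨s, ⟨-, κ, hκ, e⟩, e'⟩ := mem_autInducedBy.1 hb
    rwa [show b = κ from aut_ext fun y hy => by rw [e y hy, e' y hy]]
  · obtain ⟨-, b, -⟩ := resLimit_spec hL' hp ‹_› hS hE.1.2.1
    exact b.ge.trans ((hyp_mono (IsSubnormalIn_sub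
      (resLimit_subnormal_of_le hS hL' hD.1 (hL V L hL'))) p).trans h1)

theorem Env.step_pp (hS : IsPGroup p S) (hE : E.IsNormalIn F p) {K K' : Subgroup (MulAut T)}
    (hK : E.autGroup T ≤ K) (hn : ∀ γ ∈ F.autGroup T, ∀ κ ∈ K, γ * κ * γ⁻¹ ∈ K)
    (hp' : ∀ β ∈ K', ∀ k : ℕ, β ^ p ^ k ∈ K → β ∈ K) (h : Env p F E K') : Env p F E K := by
  obtain ⟨U, D, hD, hU, hED, hA, hL⟩ := h
  have hT := Inv.sc hE.1.2.2
  have sU := Inv.sc hD.1.2.2
  have := finite_of_le sU.1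
  have := finite_of_le hT.1
  have hUp := isPGroup_of_le hS sU.1
  have hTU : T ≤ U := le_sup_left.trans hU
  have hTD := stronglyClosed_of_sub (Inv.sub hD.1.2.2) hT hTU
  have hW := weaklyNormal_of_sub hS hE.1 hD.1.1 (Inv.sub hD.1.2.2) hED
  have hc := ppCond_autRes hUp hW (K := D.autGroup T ⊓ K) inf_le_left
    (le_inf (autGroup_mono hED T) hK) fun β hβ k hk => ⟨hβ, hp' β (hA hβ) k hk.2⟩
  have hi := Inv.sInv hD.1.2.2
  have hw := ppSys_weaklyNormal hS hD.1 inf_le_left hc fun β hβ α hα => ⟨hi.conj_mem sU.1 le_rfl hβ hα.1,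
    conj_mem_autRes hTU sU.1 (K := D.autGroup T ⊓ K) (fun γ hγ κ hκ => ⟨hi.conj_mem sU.1 hTU hγ hκ.1, hn γ hγ κ hκ.2⟩)
      ⟨hβ, mem_stab_of_maps hTU fun x hx =>
        (isMap_afn sU.1 hβ).mem_of_stronglyClosed hT (hTU hx) hx⟩ hα.2⟩
  set D₁ := ppSys p D _ inf_le_left
  have hle : D₁ ≤ D := ppSys_le _
  have hpp : ppSub p (D.autGroup T) ≤ K := ppSub_le_iff.2 fun β hβ ⟨k, hk⟩ =>
    hp' β (hA hβ) k (by rw [← hk, pow_orderOf_eq_one]; exact K.one_mem)
  have hpp' : ppSub p (D.autGroup T) ≤ D₁.autGroup T := (ppSub_le_opStar hUp hD.1.1 hTU).trans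
    (autGroup_mono (isSubsystemOf_iff.2 (le_iff_isMap.1 (opStar_le_ppSys _))) T)
  have hsub := isSubsystemOf_iff.2 (le_iff_isMap.1 hle)
  refine ⟨U, D₁, isNormalIn_of_centralizerIn_le hw ((centralizerIn_anti hTU).trans
    (le_sup_right.trans hU)), hU, (le_resSys_iff (hT := hTU)).1 (le_of_sInv_of_top
      (isPGroup_of_le hS hT.1) hE.1.1 (Inv.sub hE.1.2.2) ((Inv.sInv hw.2.2).resSys hT hTU)
      fun α hα => ?_), fun γ hγ => ?_, hL⟩
  · rw [autGroup_resSys _ _ le_rfl]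
    obtain ⟨κ, hκ, β, hβ, β', e, rfl⟩ := exists_ppSub_mul_top hUp hD.1.1
      (weaklyClosed_of_stronglyClosed hTD) (autGroup_mono hED T hα)
    refine Subgroup.mul_mem _ (hpp' hκ) (mem_autGroup_of_isMap ((isMap_afn le_rfl (α := β) ?_).mono hTU) e)
    rw [autGroup_ppSys hUp hD.1.1 _ hc]
    exact ⟨hβ, β', ⟨mem_autGroup_of_isMap ((isMap_afn le_rfl hβ).mono hTU) e,
      by simpa using K.mul_mem (K.inv_mem (hpp hκ)) (hK hα)⟩, e⟩
  · obtain ⟨κ, hκ, β, hβ, β', e, rfl⟩ := exists_ppSub_mul_top hUp hw.1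
      (weaklyClosed_of_stronglyClosed (stronglyClosed_of_sub hsub hTD hTU)) hγ
    rw [autGroup_ppSys hUp hD.1.1 _ hc] at hβ
    obtain ⟨δ, hδ, e'⟩ := hβ.2
    refine K.mul_mem (hpp (ppSub_mono p (autGroup_mono hsub T) hκ)) ?_
    rw [show β' = δ from aut_ext fun y hy => by rw [e y hy, e' y hy]]
    exact hδ.2

theorem exists_envelope (hS : IsPGroup p S) (hE : E.IsNormalIn F p)
    [((E.autGroup T).subgroupOf (F.autGroup T)).Normal]
    (h : IsPSolvable p (F.autGroup T ⧸ (E.autGroup T).subgroupOf (F.autGroup T))) :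
    ∃ D : FusionSystem (T ⊔ centralizerIn S T), D.IsNormalIn F p ∧ E.IsSubsystemOf D ∧
      D.autGroup T = E.autGroup T ∧
      ∀ (V : Subgroup Ω) (L : FusionSystem V), L.IsResidualLimitOf F p → V ≤ T ⊔ centralizerIn S T := by
  have hT := Inv.sc hE.1.2.2
  have hF := hE.1.2.1
  obtain ⟨U, D, hD, hU, hED, hA, hL⟩ : Env p F E (E.autGroup T) := by
    refine pSolvable_chain_induction (autGroup_mono (Inv.sub hE.1.2.2) T) h ⟨S, F,
      isNormalIn_self hF, sup_le hT.1 (centralizerIn_le S T), Inv.sub hE.1.2.2, le_rfl,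
      fun V L hL => ?_⟩ fun K K' h1 _ h3 h4 h5 => h4.elim (fun h4 => h5.step_p hS hE h1 h3 h4)
        fun h4 => h5.step_pp hS hE h1 h3 h4
    exact IsSubnormalIn_le (resLimit_spec hL hp ‹_› hS hF).2.2.2.1
  have hUS := Inv.le hD.1.2.2
  obtain rfl : U = T ⊔ centralizerIn S T := le_antisymm (fun u hu => by
    have hu' := le_normalizerIn_of_weaklyClosed (weaklyClosed_of_stronglyClosed hT) (hUS hu)
    obtain ⟨t, ht, e⟩ := exists_conj_of_isMap hS hE.1 (fullyNormalized_of_weaklyClosed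
      (weaklyClosed_of_stronglyClosed hT)) le_rfl hu' ((isMap_afn le_rfl (hA
        (autInducedBy_le_autGroup D (le_sup_left.trans hU) (conjAut_mem_autInducedBy
          (K := U) ⟨hu, hu'.2⟩)))).congr fun x hx => afn_conjAut _ hx)
    have : t⁻¹ * u ∈ centralizerIn S T := mem_centralizerIn_of_conj_eq (hUS hu) (hT.1 ht) e
    simpa using Subgroup.mul_mem _ (Subgroup.mem_sup_left ht) (Subgroup.mem_sup_right this)) hU
  exact ⟨D, hD, hED, le_antisymm hA (autGroup_mono hED T), hL⟩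

theorem hyp_le_of_envelope (hS : IsPGroup p S) (hE : E.IsNormalIn F p) (hC : cenE p F E ≤ T)
    {D : FusionSystem (T ⊔ centralizerIn S T)} (hD : D.IsSaturated p) (hDF : D.IsSubsystemOf F)
    (hA : D.autGroup T ≤ E.autGroup T) : D.hyperfocalSubgroup p ≤ T := by
  have hT := Inv.sc hE.1.2.2
  have hJ := le_of_isSubsystemOf hDF
  have := finite_of_le hJ
  have hTD := stronglyClosed_of_sub hDF hT le_sup_left
  refine hyp_le_of_stronglyClosed (isPGroup_of_le hS hJ) hD hTD le_rfl fun P hP hTP α hα _ x hx => ?_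
  have hf := isMap_afn hP hα
  obtain ⟨γ, hγ, e⟩ := (hf.mono hTP).exists_aut (hf.img_stronglyClosed hTD hTP)
  obtain ⟨β, hβ, e1, e2⟩ := normalIn_ext hE (hA hγ)
  have hb := isMap_afn hJ (Subgroup.inv_mem _ hβ)
  have hg := hb.comp' (hf.of_sub hDF) fun y hy => hP (afn_mem α hy)
  obtain ⟨c, hc, t, ht, rfl⟩ := exists_mul_of_mem_cenJ (hP hx)
  have hcP : c ∈ P := by simpa using P.mul_mem hx (P.inv_mem (hTP ht))
  have h1 := hC ((isCMap_of_isMap hg (P := P ⊓ centralizerIn S T) inf_le_left hTP inf_le_right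
    fun y hy => by rw [← e y hy, ← e1 y hy, afn_inv_afn _ (Subgroup.mem_sup_left hy)]).disp_mem_cenE
      hS hE ⟨hcP, hc⟩)
  have hc' : c ∈ T ⊔ centralizerIn S T := Subgroup.mem_sup_right hc
  have h2 := (isMap_afn hJ hβ).mem_of_stronglyClosed hT (Subgroup.mem_sup_left h1) h1
  rw [afn_map_mul _ (Subgroup.inv_mem _ hc') (afn_mem _ (hP (afn_mem α hcP))), afn_map_inv _ hc',
    afn_afn_inv _ (hP (afn_mem α hcP))] at h2
  rw [afn_map_mul _ hcP (hTP ht)]
  simpa [mul_assoc] using T.mul_mem (T.mul_mem (T.inv_mem ht) (T.mul_mem (e2 c hc).1 h2))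
    (hf.mem_of_stronglyClosed hTD (hTP ht) ht)

theorem cenE_le_of (hS : IsPGroup p S) (hE : E.IsNormalIn F p)
    (hCE : ∀ Y : Subgroup Ω, Y ≤ centralizerIn S T → (∀ C : FusionSystem (centralizerIn S Y),
      F.IsCentralizerSystem Y C → E.IsSubsystemOf C) → Y ≤ T) : cenE p F E ≤ T :=
  hCE _ cenE_le fun _ hC => isSubsystemOf_iff.2 fun P f hf =>
    (isCentralizerSystem_iff.1 hC P f).2 ((cenBy_cenE hS hE).2 P f hf)

end Cfsg.Agent.Fus
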