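import Mathlib
import Cfsg.Agent.Fus.Realized

/-! Realizing an arbitrary fusion system by a virtually free group. -/

set_option autoImplicit false

namespace Cfsg.Agent.Fus

open Cfsg Cfsg.FusionSystem FreeGroup

universe u

namespace VF

variable {K Y V : Type*} [Group K] [MulAction K Y] [MulAction K V]

/-- A graph with an action of `K`. -/
structure EGraph (K Y V : Type*) [Group K] [MulAction K Y] [MulAction K V] where
  s : Y → V
  t : Y → V
  s_smul : ∀ (k : K) y, s (k • y) = k • s y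
  t_smul : ∀ (k : K) y, t (k • y) = k • t y

def act (K Y : Type*) [Group K] [MulAction K Y] : K →* MulAut (FreeGroup Y) :=
  MonoidHom.mk' (fun k => freeGroupCongr (MulAction.toPerm k)) fun a b => MulEquiv.ext fun w => by
    simp only [MulAut.mul_apply, freeGroupCongr_apply, map.comp]
    congr 2
    funext y
    simp [mul_smul]

def sm (k : K) (a : Y × Bool) : Y × Bool := (k • a.1, a.2)

theorem act_mk (k : K) (L : List (Y × Bool)) : act K Y k (FreeGroup.mk L) = FreeGroup.mk (L.map (sm k)) := rfl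

theorem toWord_act [DecidableEq Y] (k : K) (w : FreeGroup Y) :
    (act K Y k w).toWord = w.toWord.map (sm k) := by
  conv_lhs => rw [← mk_toWord (x := w), act_mk, toWord_mk]
  refine FreeGroup.IsReduced.reduce_eq ?_
  rw [FreeGroup.IsReduced, List.isChain_map]
  exact isReduced_toWord.imp fun a b h e => h (MulAction.injective k e)

theorem norm_act [DecidableEq Y] (k : K) (w : FreeGroup Y) : FreeGroup.norm (act K Y k w) = FreeGroup.norm w := by
  simp [FreeGroup.norm, toWord_act]

namespace EGraph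

variable (Γ : EGraph K Y V)

def src (a : Y × Bool) : V := if a.2 then Γ.s a.1 else Γ.t a.1
def tgt (a : Y × Bool) : V := if a.2 then Γ.t a.1 else Γ.s a.1

def IsPath : V → List (Y × Bool) → V → Prop
  | v, [], v' => v = v'
  | v, a :: L, v' => Γ.src a = v ∧ IsPath (Γ.tgt a) L v'

variable {Γ}

theorem isPath_append {L L' : List (Y × Bool)} {v v' : V} :
    Γ.IsPath v (L ++ L') v' ↔ ∃ w, Γ.IsPath v L w ∧ Γ.IsPath w L' v' := by
  induction L generalizing v with
  | nil => simp [IsPath]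
  | cons a L ih => simp [IsPath, ih, and_assoc]

theorem IsPath.invRev {L : List (Y × Bool)} {v v' : V} (h : Γ.IsPath v L v') :
    Γ.IsPath v' (invRev L) v := by
  induction L generalizing v with
  | nil => exact h.symm
  | cons a L ih =>
    rw [invRev_cons]
    refine isPath_append.2 ⟨_, ih h.2, ?_⟩
    obtain ⟨y, b⟩ := a
    have := h.1
    cases b <;> simpa [FreeGroup.invRev, IsPath, src, tgt] using this

theorem IsPath.smul {L : List (Y × Bool)} {v v' : V} (h : Γ.IsPath v L v') (k : K) :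
    Γ.IsPath (k • v) (L.map (sm k)) (k • v') := by
  induction L generalizing v with
  | nil => exact congrArg _ h
  | cons a L ih =>
    obtain ⟨y, b⟩ := a
    have h1 := ih h.2
    refine ⟨?_, ?_⟩
    · rw [← h.1]; cases b <;> simp [src, sm, Γ.s_smul, Γ.t_smul]
    · convert h1 using 1; cases b <;> simp [tgt, sm, Γ.s_smul, Γ.t_smul]

theorem IsPath.red {L L' : List (Y × Bool)} {v v' : V} (h : Γ.IsPath v L v') (hr : Red L L') :
    Γ.IsPath v L' v' := by
  induction hr with
  | refl => exact h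
  | tail _ hs ih =>
    cases hs with
    | @not L₁ L₂ y b =>
      obtain ⟨w, h1, h2, h3, h4⟩ := isPath_append.1 ih
      refine isPath_append.2 ⟨w, h1, ?_⟩
      convert h4 using 1
      rw [← h2]; cases b <;> simp [src, tgt]

theorem IsPath.iff_of_edges {M : V → Prop} {L : List (Y × Bool)} {v v' : V} (h : Γ.IsPath v L v')
    (hM : ∀ a ∈ L, M (Γ.s a.1) ↔ M (Γ.t a.1)) : M v ↔ M v' := by
  induction L generalizing v with
  | nil => rw [show v = v' from h]
  | cons a L ih =>
    rw [← ih h.2 fun b hb => hM b (List.mem_cons_of_mem _ hb), ← h.1]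
    have := hM a List.mem_cons_self
    obtain ⟨y, b⟩ := a
    cases b <;> simp [src, tgt, this]

variable (Γ)

/-- The fundamental group of the graph of groups. -/
def grp (v : V) : Subgroup (FreeGroup Y ⋊[act K Y] K) where
  carrier := {g | ∃ L, FreeGroup.mk L = g.left ∧ Γ.IsPath v L (g.right • v)}
  one_mem' := ⟨[], rfl, by simp [IsPath]⟩
  mul_mem' := by
    rintro a b ⟨L, e, h⟩ ⟨L', e', h'⟩
    refine ⟨L ++ L'.map (sm a.right), by simp [← e, ← e', act_mk], isPath_append.2 ⟨_, h, ?_⟩⟩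
    simpa [mul_smul] using h'.smul a.right
  inv_mem' := by
    rintro a ⟨L, e, h⟩
    refine ⟨(invRev L).map (sm a.right⁻¹), by simp [← e, ← act_mk, inv_mk], ?_⟩
    simpa using h.invRev.smul a.right⁻¹

variable {Γ}

theorem isPath_toWord [DecidableEq Y] {v : V} {g : FreeGroup Y ⋊[act K Y] K} (hg : g ∈ Γ.grp v) :
    Γ.IsPath v g.left.toWord (g.right • v) := by
  obtain ⟨L, e, h⟩ := hg
  rw [← e, toWord_mk]
  exact h.red reduce.red

theorem exists_conj_of_bounded [DecidableEq Y] [MulAction.IsPretransitive K V] {v : V} (n : ℕ)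
    {H : Subgroup (FreeGroup Y ⋊[act K Y] K)} (hH : H ≤ Γ.grp v)
    (hn : ∀ h ∈ H, FreeGroup.norm h.left ≤ n) : ∃ g ∈ Γ.grp v, ∀ h ∈ H, (g * h * g⁻¹).left = 1 := by
  induction n generalizing H with
  | zero => exact ⟨1, Subgroup.one_mem _, fun h hh => by simpa using hn h hh⟩
  | succ n ih =>
    by_cases h0 : ∀ h ∈ H, FreeGroup.norm h.left ≤ n
    · exact ih hH h0
    push Not at h0
    obtain ⟨h₀, hh₀, hl⟩ := h0
    obtain ⟨a, L₀, e₀⟩ := List.exists_cons_of_length_pos (l := h₀.left.toWord)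
      (lt_of_le_of_lt (Nat.zero_le n) hl)
    have c1 : ∀ k ∈ H, ∀ b L, k.left.toWord = b :: L → b = a := fun k hk b L e => by
      by_contra hne
      have h1 := hn _ (H.mul_mem (H.inv_mem hk) hh₀)
      rw [SemidirectProduct.mul_left, SemidirectProduct.inv_left,
        SemidirectProduct.inv_right, ← _root_.map_mul (act K Y _), norm_act] at h1
      rw [FreeGroup.norm, toWord_mul, toWord_inv, FreeGroup.IsReduced.reduce_eq] at h1
      · rw [List.length_append, invRev_length, e, List.length_cons] at h1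
        rw [FreeGroup.norm] at hl
        omega
      · have r1 : FreeGroup.IsReduced (invRev k.left.toWord) := toWord_inv k.left ▸ isReduced_toWord
        have r2 : FreeGroup.IsReduced h₀.left.toWord := isReduced_toWord
        rw [e, invRev_cons] at r1
        rw [e₀] at r2
        rw [e, e₀, invRev_cons, FreeGroup.IsReduced, List.isChain_append]
        refine ⟨r1, r2, fun x hx y hy => ?_⟩
        simp only [FreeGroup.invRev, List.map_cons, List.map_nil, List.reverse_cons,
          List.reverse_nil, List.nil_append, List.getLast?_append, List.getLast?_singleton,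
          Option.some_or, Option.mem_def, Option.some.injEq, List.head?_cons] at hx hy
        subst hx hy
        intro e1
        by_contra e2
        exact hne (Prod.ext e1 (by simpa using e2))
    obtain ⟨κ, hκ⟩ := MulAction.exists_smul_eq K v (Γ.tgt a)
    have hp := isPath_toWord (hH hh₀)
    rw [e₀] at hp
    let g : FreeGroup Y ⋊[act K Y] K := ⟨FreeGroup.mk [a], κ⟩
    have hg : g ∈ Γ.grp v := ⟨[a], rfl, hp.1, hκ.symm⟩
    obtain ⟨g', hg', e⟩ := ih (H := H.map (MulAut.conj g⁻¹).toMonoidHom) (by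
      rintro _ ⟨h, hh, rfl⟩
      exact Subgroup.mul_mem _ (Subgroup.mul_mem _ (Subgroup.inv_mem _ hg) (hH hh))
        (Subgroup.inv_mem _ (Subgroup.inv_mem _ hg))) (by
      rintro _ ⟨k, hk, rfl⟩
      have e1 : ((MulAut.conj g⁻¹).toMonoidHom k).left =
          act K Y κ⁻¹ ((FreeGroup.mk [a])⁻¹ * k.left * FreeGroup.mk [sm k.right a]) := by
        simp [g, ← mul_assoc]
        rfl
      rw [e1, norm_act]
      rcases hw : k.left.toWord with _ | ⟨b, L⟩
      · have h1 := c1 _ (H.mul_mem hk hh₀) (sm k.right a) (L₀.map (sm k.right)) (by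
          simp [toWord_eq_nil_iff.1 hw, toWord_act, e₀])
        rw [toWord_eq_nil_iff.1 hw, h1, mul_one, inv_mul_cancel]; simp
      · obtain rfl := c1 k hk b L hw
        rcases hw' : invRev k.left.toWord with _ | ⟨c, L'⟩
        · simpa [hw] using congrArg List.length hw'
        have h1 := c1 _ (H.inv_mem hk) (sm k.right⁻¹ c) (L'.map (sm k.right⁻¹)) (by
          rw [SemidirectProduct.inv_left, toWord_act, toWord_inv, hw']; rfl)
        have h2 : sm k.right b = c := by rw [← h1]; simp [sm]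
        have h3 : b :: L = invRev L' ++ invRev [c] := by
          rw [← invRev_cons, ← hw', invRev_invRev, hw]
        have h4 := hn k hk
        rw [FreeGroup.norm, hw] at h4
        rcases hL : invRev L' with _ | ⟨d, L''⟩
        · rw [hL, ← h2] at h3
          simp [FreeGroup.invRev, sm, Prod.ext_iff] at h3
        · rw [hL, List.cons_append, List.cons.injEq] at h3
          rw [← mk_toWord (x := k.left), hw, h2, h3.2, show FreeGroup.mk (b :: (L'' ++ invRev [c])) =
            FreeGroup.mk [b] * (FreeGroup.mk L'' * (FreeGroup.mk [c])⁻¹) by simp [inv_mk], inv_mul_cancel_left,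
            inv_mul_cancel_right]
          refine norm_mk_le.trans ?_
          simp [h3.2] at h4
          omega)
    exact ⟨g' * g⁻¹, Subgroup.mul_mem _ hg' (Subgroup.inv_mem _ hg), fun h hh => by
      simpa [mul_assoc] using e _ ⟨h, hh, rfl⟩⟩

end EGraph

theorem exists_perm_of_injective {A : Type*} [Group A] [Finite A] {P : Subgroup A} (φ : P →* A)
    (hφ : Function.Injective φ) : ∃ σ : Equiv.Perm A, ∀ (x : P) (g : A), σ (x * g) = φ x * σ g := by
  obtain ⟨T, hT, -⟩ := P.exists_isComplement_right 1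
  obtain ⟨T', hT', -⟩ := φ.range.exists_isComplement_right 1
  have e := MonoidHom.ofInjective hφ
  have h1 := hT.card_mul_card
  have h2 := hT'.card_mul_card
  have h3 : Nat.card (P : Set A) = Nat.card (φ.range : Set A) := Nat.card_congr e.toEquiv
  have h4 : Nat.card T = Nat.card T' := by
    rw [← h2, h3] at h1
    exact Nat.eq_of_mul_eq_mul_left Nat.card_pos h1
  obtain ⟨β⟩ := Finite.card_eq.1 h4
  refine ⟨hT.equiv.trans (((MonoidHom.ofInjective hφ).toEquiv.prodCongr β).trans hT'.equiv.symm),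
    fun x g => ?_⟩
  simp only [Equiv.trans_apply, hT.equiv_mul_left]
  change φ (x * (hT.equiv g).1) * _ = φ x * (φ (hT.equiv g).1 * _)
  rw [_root_.map_mul, mul_assoc]
  rfl

section App

variable {Ω : Type u} [Group Ω] {S : Subgroup Ω} (F : FusionSystem S) {K : Type u} [Group K]
  (j : S →* K)

/-- Index set of the edge orbits. -/
def Idx : Type u := {i : Subgroup Ω × (Ω → Ω) × K // IsMap F i.1 i.2.1 ∧
  ∀ x ∈ i.1, hfn j (i.2.1 x) = i.2.2 * hfn j x * i.2.2⁻¹}

/-- The edge set. -/
abbrev Edge : Type u := Σ i : Idx F j, K ⧸ imageAlong j i.1.1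

def graph : EGraph K (Edge F j) (K ⧸ j.range) where
  s y := Subgroup.quotientMapOfLE (imageAlong_le_range j _) y.2
  t y := Quotient.liftOn' y.2 (fun τ => (QuotientGroup.mk (τ * y.1.1.2.2⁻¹) : K ⧸ j.range))
    fun a b h => by
      obtain ⟨x, hx, -, e⟩ := mem_imageAlong.1 (QuotientGroup.leftRel_apply.1 h)
      refine QuotientGroup.eq.2 ((mem_range_iff_hfn j).2 ⟨_, y.1.2.1.mem hx, ?_⟩)
      rw [y.1.2.2 x hx, e]
      group
  s_smul k y := by
    obtain ⟨i, τ⟩ := y
    induction τ using QuotientGroup.induction_on with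
    | H τ => rfl
  t_smul k y := by
    obtain ⟨i, τ⟩ := y
    induction τ using QuotientGroup.induction_on with
    | H τ => exact congrArg QuotientGroup.mk (mul_assoc _ _ _)

theorem graph_s (i : Idx F j) (τ : K) :
    (graph F j).s ⟨i, QuotientGroup.mk τ⟩ = QuotientGroup.mk τ := rfl

theorem graph_t (i : Idx F j) (τ : K) :
    (graph F j).t ⟨i, QuotientGroup.mk τ⟩ = QuotientGroup.mk (τ * i.1.2.2⁻¹) := rfl

/-- The virtually free group. -/
abbrev VG : Subgroup (FreeGroup (Edge F j) ⋊[act K (Edge F j)] K) :=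
  (graph F j).grp (QuotientGroup.mk 1)

theorem smul_one_eq_iff {k : K} : (QuotientGroup.mk 1 : K ⧸ j.range) =
    k • (QuotientGroup.mk 1 : K ⧸ j.range) ↔ k ∈ j.range := by
  rw [MulAction.Quotient.smul_mk, QuotientGroup.eq]
  simp

def emb : S →* VG F j := (SemidirectProduct.inr.comp j).codRestrict _ fun s =>
  ⟨[], rfl, (smul_one_eq_iff j).2 ⟨s, rfl⟩⟩

theorem hfn_emb {x : Ω} (hx : x ∈ S) : (hfn (emb F j) x).1 = SemidirectProduct.inr (hfn j x) := by
  rw [hfn_apply _ hx, hfn_apply _ hx]; rfl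

variable {F j}

theorem emb_conj (hj : ∀ P f, IsMap F P f → ∃ σ : K, ∀ x ∈ P, hfn j (f x) = σ * hfn j x * σ⁻¹)
    {P : Subgroup Ω} {f : Ω → Ω} (hf : IsMap F P f) :
    ∃ g : VG F j, ∀ x ∈ P, hfn (emb F j) (f x) = g * hfn (emb F j) x * g⁻¹ := by
  obtain ⟨σ, hσ⟩ := hj P f hf
  let y : Edge F j := ⟨⟨⟨P, f, σ⟩, hf, hσ⟩, QuotientGroup.mk 1⟩
  let g : VG F j := ⟨⟨FreeGroup.mk [(y, true)], σ⁻¹⟩, [(y, true)], rfl, rfl, by
    change QuotientGroup.mk (1 * σ⁻¹) = QuotientGroup.mk (σ⁻¹ * 1)
    rw [one_mul, mul_one]⟩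
  refine ⟨g⁻¹, fun x hx => ?_⟩
  rw [inv_inv, mul_assoc, eq_inv_mul_iff_mul_eq]
  apply Subtype.ext
  rw [Subgroup.coe_mul, Subgroup.coe_mul, hfn_emb _ _ (hf.mem hx), hfn_emb _ _ (hf.le hx), hσ x hx]
  have h1 : hfn j x • y = y := by
    refine congrArg (Sigma.mk _) (QuotientGroup.eq.2 ?_)
    simpa using hfn_mem_imageAlong j hx (hf.le hx)
  ext
  · simp [g, act_mk, sm, h1]
  · simp [g, ← mul_assoc]

theorem isMap_of_emb_conj (hinj : Function.Injective j) {P : Subgroup Ω} {f : Ω → Ω} (hP : P ≤ S)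
    (hm : ∀ x ∈ P, f x ∈ S) (g : VG F j)
    (hg : ∀ x ∈ P, hfn (emb F j) (f x) = g * hfn (emb F j) x * g⁻¹) : IsMap F P f := by
  classical
  have inj : ∀ x ∈ S, ∀ y ∈ S, hfn j x = hfn j y → x = y := fun x hx y hy e => by
    rw [hfn_apply _ hx, hfn_apply _ hy] at e
    exact congrArg Subtype.val (hinj e)
  have h0 : ∀ x ∈ P, SemidirectProduct.inr (hfn j (f x)) * g.1 =
      g.1 * SemidirectProduct.inr (hfn j x) := fun x hx => by
    rw [← hfn_emb F j (hm x hx), ← hfn_emb F j (hP hx), hg x hx]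
    simp
  have h1 : ∀ x ∈ P, g.1.right * hfn j x * g.1.right⁻¹ = hfn j (f x) := fun x hx => by
    have := congrArg SemidirectProduct.right (h0 x hx)
    simp only [SemidirectProduct.mul_right, SemidirectProduct.right_inr] at this
    rw [← this, mul_inv_cancel_right]
  have h2 : ∀ x ∈ P, ∀ a ∈ g.1.left.toWord, hfn j (f x) • a.1 = a.1 := fun x hx a ha => by
    have := congrArg (fun z => (SemidirectProduct.left z).toWord) (h0 x hx)
    simp only [SemidirectProduct.mul_left, SemidirectProduct.right_inr, SemidirectProduct.left_inr,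
      one_mul, _root_.map_one, mul_one, toWord_act] at this
    have h3 : g.1.left.toWord.map (sm (hfn j (f x))) = g.1.left.toWord.map id := by
      rw [this, List.map_id]
    exact congrArg Prod.fst (List.map_inj_left.1 h3 a ha)
  let N : K → Prop := fun τ => ∃ f', IsMap F P f' ∧ ∀ x ∈ P, τ * hfn j (f' x) * τ⁻¹ = hfn j (f x)
  let M : K ⧸ j.range → Prop := fun v => ∃ τ, QuotientGroup.mk τ = v ∧ N τ
  have hM : ∀ τ, M (QuotientGroup.mk τ) ↔ N τ := fun τ => by
    refine ⟨?_, fun h => ⟨τ, rfl, h⟩⟩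
    rintro ⟨τ', e, f', hf', h⟩
    obtain ⟨s, hs, e'⟩ := (mem_range_iff_hfn j).1 (QuotientGroup.eq.1 e.symm)
    refine ⟨_, (isMap_conj F le_rfl hs).comp' hf' fun x hx => hf'.mem hx, fun x hx => ?_⟩
    rw [hfn_conj j hs (hf'.mem hx), e', ← h x hx]
    group
  have key := (EGraph.isPath_toWord g.2).iff_of_edges (M := M) fun a ha => by
    obtain ⟨⟨i, τ⟩, b⟩ := a
    induction τ using QuotientGroup.induction_on with
    | H τ =>
      have h3 : ∀ x ∈ P, ∃ z ∈ i.1.1, τ * hfn j z * τ⁻¹ = hfn j (f x) := fun x hx => by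
        have h4 : hfn j (f x) • (QuotientGroup.mk τ : K ⧸ imageAlong j i.1.1) =
            QuotientGroup.mk τ := eq_of_heq (Sigma.mk.inj_iff.1 (h2 x hx _ ha)).2
        rw [MulAction.Quotient.smul_mk, eq_comm, QuotientGroup.eq] at h4
        obtain ⟨z, hz, -, e⟩ := mem_imageAlong.1 h4
        exact ⟨z, hz, by rw [e]; simp [mul_assoc]⟩
      rw [graph_s, graph_t, hM, hM]
      constructor
      · rintro ⟨f', hf', h⟩
        have h5 : ∀ x ∈ P, f' x ∈ i.1.1 := fun x hx => by
          obtain ⟨z, hz, e⟩ := h3 x hx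
          rw [← h x hx, mul_left_inj, mul_right_inj] at e
          rw [← inj _ (i.2.1.le hz) _ (hf'.mem hx) e]
          exact hz
        refine ⟨_, i.2.1.comp' hf' h5, fun x hx => ?_⟩
        rw [i.2.2 _ (h5 x hx), ← h x hx]
        group
      · rintro ⟨f', hf', h⟩
        obtain ⟨r, hr, hr1, -⟩ := i.2.1.exists_inv
        have h5 : ∀ x ∈ P, ∃ z ∈ i.1.1, i.1.2.1 z = f' x ∧ τ * hfn j z * τ⁻¹ = hfn j (f x) :=
          fun x hx => by
          obtain ⟨z, hz, e⟩ := h3 x hx
          refine ⟨z, hz, inj _ (i.2.1.mem hz) _ (hf'.mem hx) ?_, e⟩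
          rw [i.2.2 z hz]
          calc _ = (τ * i.1.2.2⁻¹)⁻¹ * (τ * hfn j z * τ⁻¹) * (τ * i.1.2.2⁻¹) := by group
            _ = _ := by rw [e, ← h x hx]; group
        refine ⟨_, hr.comp' hf' fun x hx => ?_, fun x hx => ?_⟩
        · obtain ⟨z, hz, e, -⟩ := h5 x hx
          exact e ▸ mem_img_of_mem _ hz
        · obtain ⟨z, hz, e, e'⟩ := h5 x hx
          rw [← e, hr1 z hz, e']
  rw [MulAction.Quotient.smul_mk, hM, hM] at key
  obtain ⟨f', hf', h⟩ := key.2 ⟨_, isMap_id F hP, fun x hx => by simpa using h1 x hx⟩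
  exact hf'.congr fun x hx => inj _ (hf'.mem hx) _ (hm x hx) (by simpa using h x hx)

theorem isRealizedBy_emb (hinj : Function.Injective j)
    (hj : ∀ P f, IsMap F P f → ∃ σ : K, ∀ x ∈ P, hfn j (f x) = σ * hfn j x * σ⁻¹) :
    F.IsRealizedBy (emb F j) :=
  isRealizedBy_iff.2 ⟨fun _ _ e => hinj (SemidirectProduct.inr_injective (congrArg Subtype.val e)),
    fun _ _ hP _ hm => ⟨emb_conj hj, fun ⟨g, hg⟩ => isMap_of_emb_conj hinj hP hm g hg⟩⟩

theorem conj_into_emb (H : Subgroup (VG F j)) [Finite H] :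
    ∃ g : VG F j, ∀ h ∈ H, g * h * g⁻¹ ∈ (emb F j).range := by
  classical
  obtain ⟨n, hn⟩ := Finite.exists_le fun h : H => FreeGroup.norm h.1.1.left
  obtain ⟨g, hg, e⟩ := EGraph.exists_conj_of_bounded n (H := H.map (VG F j).subtype)
    (Subgroup.map_subtype_le H) (by rintro _ ⟨h, hh, rfl⟩; exact hn ⟨h, hh⟩)
  refine ⟨⟨g, hg⟩, fun h hh => ?_⟩
  have e1 := e _ ⟨h, hh, rfl⟩
  have e2 := EGraph.isPath_toWord (⟨g, hg⟩ * h * ⟨g, hg⟩⁻¹ : VG F j).2
  rw [show (⟨g, hg⟩ * h * ⟨g, hg⟩⁻¹ : VG F j).1.left = 1 from e1, toWord_one] at e2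
  obtain ⟨s, hs⟩ := (smul_one_eq_iff j).1 e2
  exact ⟨s, Subtype.ext (SemidirectProduct.ext e1.symm hs)⟩

theorem exists_free_normal [Finite K] :
    ∃ N : Subgroup (VG F j), N.Normal ∧ IsFreeGroup N ∧ N.index ∣ Nat.card K := by
  let π : VG F j →* K := SemidirectProduct.rightHom.comp (VG F j).subtype
  refine ⟨π.ker, inferInstance, ?_, ?_⟩
  · let l : π.ker →* FreeGroup (Edge F j) := MonoidHom.mk' (fun x => x.1.1.left) fun x y => by
      have : x.1.1.right = 1 := x.2
      simp [this]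
    have hl : Function.Injective l := fun x y e =>
      Subtype.ext (Subtype.ext (SemidirectProduct.ext e ((show x.1.1.right = 1 from x.2).trans
        (show y.1.1.right = 1 from y.2).symm)))
    exact IsFreeGroup.ofMulEquiv (MonoidHom.ofInjective hl).symm
  · rw [Subgroup.index_ker]
    exact Subgroup.card_subgroup_dvd_card _

end App

theorem exists_virtually_free {Ω : Type u} [Group Ω] {S : Subgroup Ω} [Finite S]
    (F : FusionSystem S) : ∃ (G : Type u) (_ : Group G) (ι : S →* G), F.IsRealizedBy ι ∧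
      (∀ H : Subgroup G, Finite H → ∃ g : G, ∀ h ∈ H, g * h * g⁻¹ ∈ ι.range) ∧
      ∃ N : Subgroup G, N.Normal ∧ IsFreeGroup N ∧ N.index ∣ (Nat.card S).factorial := by
  classical
  let j := MulAction.toPermHom S S
  refine ⟨VG F j, inferInstance, emb F j, isRealizedBy_emb MulAction.toPerm_injective
    fun P f hf => ?_, fun H _ => conj_into_emb H, ?_⟩
  · let φ : P.subgroupOf S →* S := MonoidHom.mk' (fun x => ⟨f x, hf.mem x.2⟩) fun x y =>
      Subtype.ext (hf.map_mul x.2 y.2)
    obtain ⟨σ, hσ⟩ := exists_perm_of_injective φ fun x y e =>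
      Subtype.ext (Subtype.ext (hf.inj x.2 y.2 (congrArg Subtype.val e)))
    refine ⟨σ, fun x hx => ?_⟩
    rw [eq_mul_inv_iff_mul_eq, hfn_apply _ (hf.mem hx), hfn_apply _ (hf.le hx)]
    exact Equiv.ext fun g => (hσ ⟨⟨x, hf.le hx⟩, hx⟩ g).symm
  · rw [← Nat.card_perm]
    exact exists_free_normal

end VF

end Cfsg.Agent.Fus
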